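import Cfsg.Agent.H190.IF.Tab6
import Cfsg.Agent.H557.LrFam
import Cfsg.Agent.H209.IF.Kill

/-!
# S5719: `E₆(q)`, `q` odd (helper190)

* `PU.one` : the involutions with centraliser of type `D₅`; `PU.two` : those of type `A₅ A₁`;
* `exists_torus` : the involutions are conjugate to elements of the torus;
* `e6_odd` : **the cell `e6_odd`**.
-/

set_option autoImplicit false
set_option linter.unusedSectionVars false

namespace Cfsg.Agent.H190.IF

open CoxeterSystem Cfsg.Agent.ChevalleyStructure.CoxeterGeom Cfsg.Agent.Tits.Roots Cfsg.Agent.Tits.Core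
  Cfsg.Agent.Tits.RootComb Cfsg.Agent.Tits.Exchange Cfsg.Agent.Nodes.Reps Cfsg.Agent.Nodes.BNOf
  Cfsg.Agent.Nodes.StabComb Cfsg.Agent.Nodes.Bruhat Cfsg.Agent.Nodes.OppDec Cfsg.Agent.Nodes.RGDLib
  Cfsg.Agent.Nodes.Coroot
open Cfsg Cfsg.Lie Cfsg.Agent.ChevalleyStructure.CoxeterGeomTypes Cfsg.Agent.Nodes.RGDChev
open Cfsg.Agent.KFacts.RgdChevCoord (TT XX)
open Cfsg.Agent.GenExc.Chev (zS isType_E6 diag_comm)
open Cfsg.Agent.H557
open Cfsg.Agent.H557.LrSgn Cfsg.Agent.H557.LrOrb Cfsg.Agent.H557.LrNF Cfsg.Agent.H557.LrData Cfsg.Agent.H557.LrChev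
open scoped Pointwise

/-! ### sign elements -/

section Sgn

variable {I W Y : Type*} [Fintype I] [DecidableEq I] [Group W] [Group Y] {M : CoxeterMatrix I}
  {cs : CoxeterSystem M W} {A : I → I → ℤ} {h : IsCartan M A} {p : ℕ} {T : Subgroup Y} {n : I → Y}
  {X : (I → ℤ) → Subgroup Y}

theorem sgn_sq (hG1 : G1 cs h X = ⊤) (hZ : Subgroup.center Y = ⊥) {φ : (I → ℤ) →+ ZMod 2} {t : Y}
    (ht : SgnEl cs h T X φ t) : t * t = 1 := by
  have h1 := LrNF.SgnEl.mul ht ht
  have h2 : φ + φ = 0 := AddMonoidHom.ext fun x => add_self_zmod2 _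
  rw [h2] at h1
  exact SgnEl.unique hG1 hZ h1 LrNF.SgnEl.one

theorem sgn_order (hG1 : G1 cs h X = ⊤) (hZ : Subgroup.center Y = ⊥) {φ : (I → ℤ) →+ ZMod 2} {t : Y}
    (ht : SgnEl cs h T X φ t) (h1 : t ≠ 1) : orderOf t = 2 :=
  orderOf_eq_prime (by rw [pow_two]; exact sgn_sq hG1 hZ ht) h1

theorem sgn_ne_one [Finite W] (R : RGD cs h p T n X) (hp2 : Odd p) {φ : (I → ℤ) →+ ZMod 2} {t : Y}
    (ht : SgnEl cs h T X φ t) {a : I → ℤ} (ha : IsRoot cs h a) (h0 : φ a ≠ 0) : t ≠ 1 := by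
  rintro rfl
  apply X_ne_bot R ha
  rw [eq_bot_iff]
  intro u hu
  rw [Subgroup.mem_bot]
  exact eq_one_of_inv R hp2 ha hu (ht.inv a ha h0 u hu) (by rw [one_mul, mul_one])

theorem Inv2.mem [Finite W] (R : RGD cs h p T n X) {β : I → ℤ} {z : Y} (H : Inv2 cs h T X β z) {B : Subgroup Y}
    (h1 : X β ≤ B) (h2 : X (-β) ≤ B) : z ∈ B := by
  obtain ⟨⟨u, hu⟩, hu1⟩ := Subgroup.ne_bot_iff_exists_ne_one.1 (X_ne_bot R H.root)
  obtain ⟨⟨v, hv⟩, hv1⟩ := Subgroup.ne_bot_iff_exists_ne_one.1 (X_ne_bot R H.root.neg)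
  refine (Subgroup.closure_le B).2 ?_ (H.opp u hu v hv (fun e => hu1 (Subtype.ext e)) (fun e => hv1 (Subtype.ext e)))
  rintro x (rfl | rfl)
  · exact h1 hu
  · exact h2 hv

end Sgn

theorem bits_add {l a b c : ℕ} (h : ∀ k : Fin l, (a.testBit k ^^ b.testBit k) = c.testBit k) :
    bits l a + bits l b = bits l c := by
  refine ext_sr fun k => ?_
  rw [AddMonoidHom.add_apply, bits_sr, bits_sr, bits_sr, ← h k]
  cases a.testBit k <;> cases b.testBit k <;> decide

theorem conj_ne_top {Y : Type*} [Group Y] {A : Subgroup Y} (hA : A ≠ ⊤) (g : Y) : MulAut.conj g • A ≠ ⊤ := by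
  intro h
  apply hA
  rw [Subgroup.eq_top_iff']
  intro x
  have h1 : g * x * g⁻¹ ∈ MulAut.conj g • A := by
    rw [h]
    exact Subgroup.mem_top _
  rw [H255.IFK.mem_conj] at h1
  have h2 : g⁻¹ * (g * x * g⁻¹) * g = x := by group
  rwa [h2] at h1

/-! ### `E₆` -/

namespace ESix

variable {K : Type} [Field K] {W : Type*} [Group W] (cs : CoxeterSystem CoxeterMatrix.E₆ W)

/-- no `A` with a sign element `≠ 1` of the mask `m` -/
def PU (cs : CoxeterSystem CoxeterMatrix.E₆ W) (K : Type) [Field K] (m : ℕ) : Prop :=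
  ∀ A : Subgroup ↥(chevE6.group K), H255.IFK.Fix A → A ≠ ⊤ → ∀ t ∈ A,
    SgnEl cs isType_E6.isCartan (TT chevE6 K) (XX chevE6 6 K) (bits 6 m) t → t ≠ 1 → False

section

variable {cs} [Finite W] [Fintype K] {p : ℕ} [Fact p.Prime] [CharP K p]

/-- the root group data -/
theorem rg : RGD cs isType_E6.isCartan p (TT chevE6 K) (fun i => (⟨nn isType_E6 K i, nn_mem_group isType_E6 i⟩ :
    ↥(chevE6.group K))) (XX chevE6 6 K) := rgd isType_E6 cs p

theorem center_bot : Subgroup.center ↥(chevE6.group K) = ⊥ := center_eq_bot (S1054.result _ (by simp))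

variable (p)

include p in
theorem PU.step (j : Fin 6) (m : ℕ) (hP : PU cs K (stepR rmE6 j m)) : PU cs K m := by
  intro A hA hAt t htA ht h1
  have R := rg (cs := cs) (K := K) (p := p)
  have h2 := ht.conj R (rp_simple cs R.nsys j)
  rw [bits_step cs _ okR_E6] at h2
  refine hP _ (hA.conj _) (conj_ne_top hAt _) _ (H255.IFK.conj_mem_conj htA) h2 fun h3 => h1 ?_
  rw [mul_inv_eq_one, mul_eq_left] at h3
  exact h3

include p in
theorem PU.path (js : List (Fin 6)) : ∀ m : ℕ, PU cs K (js.foldl (fun m j => stepR rmE6 j m) m) → PU cs K m := by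
  induction js with
  | nil => exact fun m h => h
  | cons j js ih => exact fun m h => PU.step p j m (ih _ h)

theorem PU.zero : PU cs K 0 := by
  intro A hA hAt t htA ht h1
  apply h1
  refine SgnEl.unique (G1_eq_top isType_E6 cs) center_bot ht ⟨one_mem _, fun a _ _ u _ => by rw [one_mul, mul_one],
    fun a _ h2 => ?_⟩
  exact absurd (by rw [bits_zero]; rfl) h2

variable {p} (hp2 : Odd p)

include hp2

theorem three_le (K : Type) [Field K] [Fintype K] [CharP K p] : 3 ≤ Fintype.card K ∧ Odd (Fintype.card K) ∧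
    (2 : K) ≠ 0 := by
  have h1 : 1 < Fintype.card K := Fintype.one_lt_card
  obtain ⟨h2, h3⟩ := LrIso.odd_card (F := K) hp2
  refine ⟨?_, h2, h3⟩
  rcases h2 with ⟨k, hk⟩
  omega

/-- the involutions of roots -/
theorem exists_z {b : Tab6.V} (hb : b ∈ Tab6.RT) {m : ℕ} (hm : Tab6.mk b m = true) :
    ∃ z, Inv2 cs isType_E6.isCartan (TT chevE6 K) (XX chevE6 6 K) (Tab6.toV b) z ∧
      SgnEl cs isType_E6.isCartan (TT chevE6 K) (XX chevE6 6 K) (bits 6 m) z := by
  have R := rg (cs := cs) (K := K) (p := p)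
  obtain ⟨z, hz⟩ := exists_inv2 R (fun i => ⟨_, Chev.inv2_simple isType_E6 K cs (three_le hp2 K).2.2 i⟩)
    ((Tab6.isRoot_iff' cs _).2 ⟨b, hb, rfl⟩)
  refine ⟨z, hz, ?_⟩
  have h3 := hz.sgn
  rwa [Tab6.psi_eq cs hb hm hz.root] at h3

/-- the length of a class of sign elements -/
theorem idx {m c N : ℕ} (hc : (Tab6.RT.filter (Tab6.posP m)).length = c) (hN : 2 * c + N = 78) {t : ↥(chevE6.group K)}
    (ht : SgnEl cs isType_E6.isCartan (TT chevE6 K) (XX chevE6 6 K) (bits 6 m) t) :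
    (Subgroup.centralizer ({t} : Set ↥(chevE6.group K))).index * (Fintype.card K - 1) ^ 6 ≤ Fintype.card K ^ N := by
  have R := rg (cs := cs) (K := K) (p := p)
  have h3 := (three_le hp2 K).1
  refine index_bound R (Tab6.sl cs) (diag_comm isType_E6 K) (fun α hα => ?_) ht (Tab6.SP (Tab6.posP m))
    (Tab6.mem_posP cs m) (by omega) ?_
  · rw [Chev.card_X isType_E6 K cs hα, Nat.card_eq_fintype_card]
  · rw [Tab6.card_SP, hc, hN]
    exact Tab6.card_le K

/-- **the involutions with centraliser of type `D₅`** -/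
theorem PU.one : PU cs K 1 := by
  intro A hA hAt t htA ht h1
  have R := rg (cs := cs) (K := K) (p := p)
  have hG := G1_eq_top (K := K) isType_E6 cs
  obtain ⟨hq, hodd, h2⟩ := three_le hp2 K
  have key : ∀ n ∈ [1, 32, 33], ∀ s ∈ A, s ≠ 1 →
      SgnEl cs isType_E6.isCartan (TT chevE6 K) (XX chevE6 6 K) (bits 6 n) s →
      ∀ γ, IsRoot cs isType_E6.isCartan γ → bits 6 n γ = 0 → XX chevE6 6 K γ ≤ A := by
    intro n hn s hsA hs1 hs γ hγ h0
    exact ustep R (Tab6.sl cs) (fun α hα => Chev.ab_X isType_E6 K cs hα)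
      (fun α hα => by rw [Chev.card_X isType_E6 K cs hα, Nat.card_eq_fintype_card]) hq hodd hA hs hsA
      (sgn_order hG center_bot hs hs1) (idx hp2 (Tab6.tab_pos_u n hn) (by norm_num) hs) (Tab6.heis_data cs hn)
      (Tab6.sum_data cs hn hγ h0)
  have hD := key 1 (by simp) t htA h1 ht
  have hev : ∀ v ∈ Tab6.RT, Tab6.evV 1 v = true → XX chevE6 6 K (Tab6.toV v) ≤ A := fun v hv h0 =>
    hD _ ((Tab6.isRoot_iff' cs _).2 ⟨v, hv, rfl⟩) ((Tab6.bits_iff 1 v).2 h0)
  obtain ⟨z1, hz1, hs1⟩ := exists_z (cs := cs) (K := K) hp2 (b := (0, 1, 0, 0, 0, 0)) (by decide +kernel) Tab6.mk_s1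
  obtain ⟨z4, hz4, hs4⟩ := exists_z (cs := cs) (K := K) hp2 (b := (0, 0, 0, 0, 1, 0)) (by decide +kernel) Tab6.mk_s4
  have hm1 : z1 ∈ A := hz1.mem R (hev _ (by decide +kernel) (by decide +kernel)) (by
    rw [← Tab6.toV_neg]
    exact hev _ (by decide +kernel) (by decide +kernel))
  have hm4 : z4 ∈ A := hz4.mem R (hev _ (by decide +kernel) (by decide +kernel)) (by
    rw [← Tab6.toV_neg]
    exact hev _ (by decide +kernel) (by decide +kernel))
  have hs : SgnEl cs isType_E6.isCartan (TT chevE6 K) (XX chevE6 6 K) (bits 6 32) (z1 * z4) := by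
    have := LrNF.SgnEl.mul hs1 hs4
    rwa [bits_add (c := 32) (by decide)] at this
  have hs' : SgnEl cs isType_E6.isCartan (TT chevE6 K) (XX chevE6 6 K) (bits 6 33) (t * (z1 * z4)) := by
    have := LrNF.SgnEl.mul ht hs
    rwa [bits_add (c := 33) (by decide)] at this
  have hne : z1 * z4 ≠ 1 := sgn_ne_one R hp2 hs (isRoot_sr cs _ 5) (by rw [bits_sr]; decide)
  have hne' : t * (z1 * z4) ≠ 1 := sgn_ne_one R hp2 hs' (isRoot_sr cs _ 5) (by rw [bits_sr]; decide)
  apply hAt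
  rw [eq_top_iff, ← hG]
  refine RGD.Sup_le fun γ hγ => ?_
  obtain ⟨n, hn, h0⟩ := Tab6.cov_data cs hγ
  have hn' := hn
  simp only [List.mem_cons, List.not_mem_nil, or_false] at hn'
  rcases hn' with rfl | rfl | rfl
  · exact hD γ hγ h0
  · exact key 32 hn _ (mul_mem hm1 hm4) hne hs γ hγ h0
  · exact key 33 hn _ (mul_mem htA (mul_mem hm1 hm4)) hne' hs' γ hγ h0

/-- **the involutions with centraliser of type `A₅ A₁`** -/
theorem PU.two : PU cs K 2 := by
  intro A hA hAt z hzA hz hz1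
  have R := rg (cs := cs) (K := K) (p := p)
  have hG := G1_eq_top (K := K) isType_E6 cs
  obtain ⟨hq, hodd, h2⟩ := three_le hp2 K
  obtain ⟨rth, rt1, rt2, rt3⟩ := Tab6.tab_root
  obtain ⟨o1, o2, o3, o21, o31, o32⟩ := Tab6.tab_orth
  obtain ⟨z1, hi1, hs1⟩ := exists_z (cs := cs) (K := K) hp2 rt1 Tab6.mk_t1
  obtain ⟨z2, hi2, hs2⟩ := exists_z (cs := cs) (K := K) hp2 rt2 Tab6.mk_t2
  obtain ⟨z3, hi3, hs3⟩ := exists_z (cs := cs) (K := K) hp2 rt3 Tab6.mk_t3
  set X := XX chevE6 6 K with hX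
  let L := RGD.Sup X (EC cs isType_E6.isCartan [Tab6.toV Tab6.th])
  let Zs : Set ↥(chevE6.group K) := {y | ∃ g ∈ L, ∃ s, (s = z1 ∨ s = z2 ∨ s = z3) ∧ y = g * s * g⁻¹}
  have hsq : ∀ s, (s = z1 ∨ s = z2 ∨ s = z3) → s * s = 1 := by
    rintro s (rfl | rfl | rfl)
    · exact sgn_sq hG center_bot hs1
    · exact sgn_sq hG center_bot hs2
    · exact sgn_sq hG center_bot hs3
  have hZ2 : ∀ y ∈ Zs, y * y = 1 := by
    rintro _ ⟨g, -, s, hs, rfl⟩
    have : g * s * g⁻¹ * (g * s * g⁻¹) = g * (s * s) * g⁻¹ := by group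
    rw [this, hsq s hs, mul_one, mul_inv_cancel]
  have hZc : ∀ g ∈ L, ∀ y ∈ Zs, g * y * g⁻¹ ∈ Zs := by
    rintro g hg _ ⟨k, hk, s, hs, rfl⟩
    exact ⟨g * k, mul_mem hg hk, s, hs, by group⟩
  have hmem : ∀ s, (s = z1 ∨ s = z2 ∨ s = z3) → s ∈ Zs := fun s hs => ⟨1, one_mem _, s, hs, by group⟩
  have hab : ∀ α, IsRoot cs isType_E6.isCartan α → ∀ u ∈ X α, ∀ v ∈ X α, u * v = v * u :=
    fun α hα => Chev.ab_X isType_E6 K cs hα
  have hcard : ∀ α, IsRoot cs isType_E6.isCartan α → Nat.card (X α) = Fintype.card K := fun α hα => by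
    rw [hX, Chev.card_X isType_E6 K cs hα, Nat.card_eq_fintype_card]
  have hr : ∀ v ∈ Tab6.RT, IsRoot cs isType_E6.isCartan (Tab6.toV v) := fun v hv => (Tab6.isRoot_iff' cs _).2 ⟨v, hv, rfl⟩
  -- the chain
  have p3 : H203.IF.Phi (RGD.Sup X (EC cs isType_E6.isCartan [Tab6.toV Tab6.t2, Tab6.toV Tab6.t1, Tab6.toV Tab6.th])) Zs
      (Fintype.card K) := by
    refine phi_start R (Tab6.sl cs) hab hcard hq hodd (α := Tab6.toV Tab6.t3) ?_ ?_ hi3 (hmem _ (by simp))
    · intro c hc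
      simp only [List.mem_cons, List.not_mem_nil, or_false] at hc
      rcases hc with rfl | rfl | rfl
      · exact hr _ rt2
      · exact hr _ rt1
      · exact hr _ rth
    · refine Tab6.mem_EC cs (C := [Tab6.t2, Tab6.t1, Tab6.th]) ?_ rt3 ?_
      · intro c hc
        simp only [List.mem_cons, List.not_mem_nil, or_false] at hc
        rcases hc with rfl | rfl | rfl
        · exact rt2
        · exact rt1
        · exact rth
      · intro c hc
        simp only [List.mem_cons, List.not_mem_nil, or_false] at hc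
        rcases hc with rfl | rfl | rfl
        · exact o32
        · exact o31
        · exact o3
  have hC1 : ∀ c ∈ [Tab6.th], c ∈ Tab6.RT := by
    intro c hc
    rw [List.mem_singleton] at hc
    rw [hc]
    exact rth
  have hC2 : ∀ c ∈ [Tab6.t1, Tab6.th], c ∈ Tab6.RT := by
    intro c hc
    simp only [List.mem_cons, List.not_mem_nil, or_false] at hc
    rcases hc with rfl | rfl
    · exact rt1
    · exact rth
  have hLe : RGD.Sup X (EC cs isType_E6.isCartan [Tab6.toV Tab6.t1, Tab6.toV Tab6.th]) ≤ L :=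
    RGD.Sup_mono (EC_mono _ _)
  have p2 : H203.IF.Phi (RGD.Sup X (EC cs isType_E6.isCartan [Tab6.toV Tab6.t1, Tab6.toV Tab6.th])) Zs
      (Fintype.card K ^ (2 + 1) * Fintype.card K) := by
    refine phi_step R (Tab6.sl cs) hab hcard hq hodd (α := Tab6.toV Tab6.t2) (d := 2) (fun c hc => ?_) ?_
      (Tab6.SP (Tab6.orP [Tab6.t1, Tab6.th] Tab6.t2)) (Tab6.SP (Tab6.orP [Tab6.t1, Tab6.th] (-Tab6.t2)))
      (Tab6.mem_orP cs hC2 rt2) ?_ ?_ ?_ hZ2 (fun g hg => hZc g (hLe hg)) hi2 (hmem _ (by simp)) p3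
    · obtain ⟨c', hc', rfl⟩ := List.mem_map.1 (show c ∈ [Tab6.t1, Tab6.th].map Tab6.toV from hc)
      exact hr _ (hC2 c' hc')
    · refine Tab6.mem_EC cs hC2 rt2 ?_
      intro c hc
      simp only [List.mem_cons, List.not_mem_nil, or_false] at hc
      rcases hc with rfl | rfl
      · exact o21
      · exact o2
    · intro x
      rw [Tab6.mem_orP cs hC2 (Tab6.neg_mem _ rt2), Tab6.toV_neg]
    · rw [Tab6.card_SP, Tab6.tab_or2.1]
    · rw [Tab6.card_SP, Tab6.tab_or2.2]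
  have p1 : H203.IF.Phi L Zs (Fintype.card K ^ (4 + 1) * (Fintype.card K ^ (2 + 1) * Fintype.card K)) := by
    refine phi_step R (Tab6.sl cs) hab hcard hq hodd (α := Tab6.toV Tab6.t1) (d := 4) (fun c hc => ?_) ?_
      (Tab6.SP (Tab6.orP [Tab6.th] Tab6.t1)) (Tab6.SP (Tab6.orP [Tab6.th] (-Tab6.t1)))
      (Tab6.mem_orP cs hC1 rt1) ?_ ?_ ?_ hZ2 hZc hi1 (hmem _ (by simp)) p2
    · obtain ⟨c', hc', rfl⟩ := List.mem_map.1 (show c ∈ [Tab6.th].map Tab6.toV from hc)
      exact hr _ (hC1 c' hc')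
    · refine Tab6.mem_EC cs hC1 rt1 ?_
      intro c hc
      rw [List.mem_singleton] at hc
      rw [hc]
      exact o1
    · intro x
      rw [Tab6.mem_orP cs hC1 (Tab6.neg_mem _ rt1), Tab6.toV_neg]
    · rw [Tab6.card_SP, Tab6.tab_or1.1]
    · rw [Tab6.card_SP, Tab6.tab_or1.2]
  -- `L ≤ C(z)`
  have hLz : L ≤ Subgroup.centralizer {z} := by
    refine RGD.Sup_le fun x hx u hu => Subgroup.mem_centralizer_singleton_iff.2 (hz.fix x hx.1 ?_ u hu).symm
    rw [← Tab6.psi_eq cs rth Tab6.mk_th (hr _ rth), psi_apply, hx.2 _ (List.mem_singleton.2 rfl), Int.cast_zero]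
  have hzo := sgn_order hG center_bot hz hz1
  -- an element of `Zs` in `A`
  obtain ⟨y, hyZ, hyA⟩ : ∃ y ∈ Zs, y ∈ A := by
    by_contra hcon
    push Not at hcon
    obtain ⟨f, hf1, hf2⟩ := Fix_bound hA hzA hzo
    have h3 := p1 (A ⊓ L) inf_le_right (fun y hy hyA => hcon y hy (Subgroup.mem_inf.1 hyA).1)
    rw [Subgroup.inf_relIndex_right] at h3
    have h4 := h3.trans (hf1 L hLz)
    refine num_z hq ?_ hf2 (idx hp2 Tab6.tab_pos_z (by norm_num) hz)
    calc Fintype.card K ^ 9 = Fintype.card K ^ (4 + 1) * (Fintype.card K ^ (2 + 1) * Fintype.card K) := by ring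
      _ ≤ f := h4
  obtain ⟨g, hgL, s, hs, rfl⟩ := hyZ
  have hgz : g * z = z * g := Subgroup.mem_centralizer_singleton_iff.1 (hLz hgL)
  -- the conjugate of `A`
  have hA' := hA.conj g⁻¹
  have hAt' := conj_ne_top hAt g⁻¹
  have hsA' : s ∈ MulAut.conj g⁻¹ • A := by
    rw [H255.IFK.mem_conj, inv_inv]
    exact hyA
  have hzA' : z ∈ MulAut.conj g⁻¹ • A := by
    rw [H255.IFK.mem_conj, inv_inv, hgz, mul_inv_cancel_right]
    exact hzA
  have hzs : z * s ∈ MulAut.conj g⁻¹ • A := mul_mem hzA' hsA'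
  have fin : ∀ (m' m : ℕ) (js : List (Fin 6)), js.foldl (fun m j => stepR rmE6 j m) m = 1 →
      (∀ k : Fin 6, ((2 : ℕ).testBit k ^^ m'.testBit k) = m.testBit k) → (∃ k : Fin 6, m.testBit k = true) →
      SgnEl cs isType_E6.isCartan (TT chevE6 K) (XX chevE6 6 K) (bits 6 m') s → False := by
    rintro m' m js hjs hm ⟨k, hk⟩ hs'
    have h3 := LrNF.SgnEl.mul hz hs'
    rw [bits_add hm] at h3
    refine PU.path (cs := cs) (K := K) p js m (by rw [hjs]; exact PU.one hp2) _ hA' hAt' _ hzs h3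
      (sgn_ne_one R hp2 h3 (isRoot_sr cs _ k) ?_)
    rw [bits_sr, if_pos hk]
    decide
  rcases hs with rfl | rfl | rfl
  · exact fin 35 33 [0, 2, 3, 4, 1, 3, 2, 0] (by decide +kernel) (by decide) ⟨0, by decide⟩ hs1
  · exact fin 55 53 [5, 2, 3, 4, 1, 3, 2, 0] (by decide +kernel) (by decide) ⟨0, by decide⟩ hs2
  · exact fin 22 20 [4, 5, 3, 4, 1, 3, 2, 0] (by decide +kernel) (by decide) ⟨2, by decide⟩ hs3

/-- **all masks** -/
theorem PU.all {m : ℕ} (hm : m < 2 ^ 6) : PU cs K m := by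
  refine orbit_all (rm := rmE6) (fun j n => PU.step p j n) okL_E6 (fun m hm => ?_) hm
  have hc : ∀ m : ℕ, (7 : ℕ).testBit m = true → m = 0 ∨ m = 2 ∨ m = 1 := by
    intro m hm
    by_cases h : m < 3
    · revert hm
      revert m
      decide +kernel
    · exfalso
      rw [Nat.testBit_lt_two_pow (lt_of_lt_of_le (by norm_num : (7 : ℕ) < 2 ^ 3)
        (Nat.pow_le_pow_right (by norm_num) (not_lt.1 h)))] at hm
      exact absurd hm (by decide)
  rcases hc m hm with rfl | rfl | rfl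
  · exact PU.zero
  · exact PU.two hp2
  · exact PU.one hp2

end

/-! ### Involutions -/

section

open Cfsg.Agent.UGT.U2.FOne hiding isType_E6
open Cfsg.Agent.H974.Exc (sym_E6 J_E6 J_E6' fix_of_id map_of_graph s6)

variable (K : Type) [Field K] [Fintype K]

/-- the involutions of `E₆(q)`, `q` odd, are conjugate to elements of the torus -/
theorem exists_torus (ho : Odd (Fintype.card K)) {t : ↥(chevE6.group K)} (htt : t * t = 1) (h1 : t ≠ 1) :
    ∃ k : ↥(chevE6.group K), k⁻¹ * t * k ∈ TT chevE6 K := by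
  obtain ⟨p, hpp, hpc, hp2⟩ := LrFam.exists_char K ho
  have : Fact p.Prime := ⟨hpp⟩
  have hp2' : p ≠ 2 := by
    rintro rfl
    exact (by decide : ¬ Odd 2) hp2
  have hS : IsSimpleGroup ↥(Lie.chevE6.group K) ∧ ¬ IsMulCommutative ↥(Lie.chevE6.group K) := S1054.result _ (by simp)
  have hs := hS.1
  have hZ := center_eq_bot hS
  obtain ⟨cs, hcs⟩ : ∃ cs, cs = (CoxeterMatrix.E₆).toCoxeterSystem := ⟨_, rfl⟩
  have hW : Finite (CoxeterMatrix.E₆).Group := finite_W isType_E6 cs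
  have R := rgd (K := K) isType_E6 cs p
  have hG := G1_eq_top (K := K) isType_E6 cs
  have hGG := KFacts.RgdRigid.GG_eq_top (T := TT chevE6 K) hG
  obtain ⟨k, φ, σ, J, g, N⟩ := exists_nf_inner hp2' R hG hZ htt h1
  refine ⟨k, ?_⟩
  rcases sym_E6 ⟨σ, σ, N.σσ, N.σσ⟩ (fun i j => FFour.sigma_matrix N.φ_simple i j) with hσ | hσ
  · have hσ' : ∀ i, σ i = i := hσ
    have hJ := J_E6 N hσ'
    exact mem_T_of R hGG fun c hc => fix_of_id N.nx hσ' hJ hc
  · exfalso
    have hσ' : σ = s6 := funext hσ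
    have hJ := J_E6' N hσ'
    have hA : ∀ i j, cartanOf chevE6 6 (σ i) (σ j) = cartanOf chevE6 6 i j := by
      rw [hσ']
      decide +kernel
    have hmap : ∀ c, IsRoot cs isType_E6.isCartan c → cj (k⁻¹ * t * k) (XX chevE6 6 K c) = XX chevE6 6 K (c ∘ σ) :=
      fun c hc => map_of_graph N.nx hA hJ hc
    have hroot : ∀ c, IsRoot cs isType_E6.isCartan c → IsRoot cs isType_E6.isCartan (c ∘ σ) := by
      rintro _ ⟨w, i, rfl⟩
      rw [← H974.Exc.rep_comp N.φ_simple N.σσ hA]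
      refine ⟨φ w, σ i, ?_⟩
      congr 1
      funext j
      by_cases hj : j = σ i
      · rw [hj, Function.comp_apply, N.σσ, sr_self, sr_self]
      · rw [Function.comp_apply, sr_ne hj, sr_ne]
        intro h2
        exact hj (by rw [← h2, N.σσ])
    have h6 := graph_trivial R hGG N.σσ hroot hmap 0
    rw [hσ'] at h6
    exact absurd h6 (by decide)

/-- no proper `A` of even order with `Fix A` -/
theorem no_fix (ho : Odd (Fintype.card K)) {A : Subgroup ↥(chevE6.group K)} (hA : H255.IFK.Fix A) (hAt : A ≠ ⊤)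
    {t : ↥(chevE6.group K)} (htA : t ∈ A) (ht2 : orderOf t = 2) : False := by
  obtain ⟨p, hpp, hpc, hp2⟩ := LrFam.exists_char K ho
  have : Fact p.Prime := ⟨hpp⟩
  obtain ⟨cs, hcs⟩ : ∃ cs, cs = (CoxeterMatrix.E₆).toCoxeterSystem := ⟨_, rfl⟩
  have hW : Finite (CoxeterMatrix.E₆).Group := finite_W isType_E6 cs
  have htt : t * t = 1 := by
    rw [← pow_two, ← ht2]
    exact pow_orderOf_eq_one t
  have h1 : t ≠ 1 := by
    rintro rfl
    rw [orderOf_one] at ht2
    omega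
  obtain ⟨k, hk⟩ := exists_torus K ho htt h1
  have hsq : k⁻¹ * t * k * (k⁻¹ * t * k) = 1 := by
    have : k⁻¹ * t * k * (k⁻¹ * t * k) = k⁻¹ * (t * t) * k := by group
    rw [this, htt, mul_one, inv_mul_cancel]
  obtain ⟨m, hm, hs⟩ := exists_sgn isType_E6 cs p (LrIso.odd_card (F := K) hp2).2 hk hsq
  refine PU.all (cs := cs) (K := K) hp2 hm _ (hA.conj k⁻¹) (conj_ne_top hAt _) (k⁻¹ * t * k) ?_ hs ?_
  · rw [H255.IFK.mem_conj]
    have : k⁻¹⁻¹ * (k⁻¹ * t * k) * k⁻¹ = t := by group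
    rwa [this]
  · intro h
    apply h1
    have : t = k * (k⁻¹ * t * k) * k⁻¹ := by group
    rw [this, h, mul_one, mul_inv_cancel]

end

end ESix

/-- **S5719, `E₆(q)`, `q` odd** -/
theorem e6_odd : ∀ (F : Type) [Field F] [Fintype F], Odd (Fintype.card F) → IsSimpleGroup (chevE6.group F) →
    H209.Fxy.KillE (chevE6.group F) := by
  rintro F _ _ ho hs A Γ h ⟨t, htA, ht2⟩
  have hS : IsSimpleGroup ↥(Lie.chevE6.group F) ∧ ¬ IsMulCommutative ↥(Lie.chevE6.group F) := S1054.result _ (by simp)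
  have hna : ∃ a b : ↥(chevE6.group F), a * b ≠ b * a := by
    by_contra hcon
    push Not at hcon
    exact hS.2 ⟨⟨hcon⟩⟩
  exact ESix.no_fix F ho (H255.IFK.fix_of_IF h hna) h.ne_top htA ht2

end Cfsg.Agent.H190.IF
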