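import Cfsg.Agent.H190.IF.Tab7
import Cfsg.Agent.H190.IF.ESix
import Cfsg.Agent.H897.IF.ENum

/-!
# S5719: `E₇(q)`, `q` odd: toral involutions (helper190)

* `chain` : the index of subgroups without fundamental involutions;
* `toral` : **if `A` contains an involution conjugate to an element of the torus, then it contains a fundamental
  involution.**
-/

set_option autoImplicit false
set_option linter.unusedSectionVars false

namespace Cfsg.Agent.H190.IF.ESeven

open CoxeterSystem Cfsg.Agent.ChevalleyStructure.CoxeterGeom Cfsg.Agent.Tits.Roots Cfsg.Agent.Tits.Core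
  Cfsg.Agent.Tits.RootComb Cfsg.Agent.Tits.Exchange Cfsg.Agent.Nodes.Reps Cfsg.Agent.Nodes.BNOf
  Cfsg.Agent.Nodes.StabComb Cfsg.Agent.Nodes.Bruhat Cfsg.Agent.Nodes.OppDec Cfsg.Agent.Nodes.RGDLib
  Cfsg.Agent.Nodes.Coroot
open Cfsg Cfsg.Lie Cfsg.Agent.ChevalleyStructure.CoxeterGeomTypes Cfsg.Agent.Nodes.RGDChev
open Cfsg.Agent.KFacts.RgdChevCoord (TT XX)
open Cfsg.Agent.GenExc.Chev (zS isType_E7 diag_comm)
open Cfsg.Agent.H557
open Cfsg.Agent.H557.LrSgn Cfsg.Agent.H557.LrOrb Cfsg.Agent.H557.LrNF Cfsg.Agent.H557.LrData Cfsg.Agent.H557.LrChev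
open Cfsg.Agent.H190.IF.Tab7
open scoped Pointwise

theorem Phi_one {T : Type*} [Group T] [Finite T] (L : Subgroup T) (Zs : Set T) : H203.IF.Phi L Zs 1 := by
  intro Y hY _
  exact Nat.one_le_iff_ne_zero.2 (Subgroup.index_ne_zero_of_finite (H := Y.subgroupOf L))

variable {K : Type} [Field K] {W : Type*} [Group W] (cs : CoxeterSystem CoxeterMatrix.E₇ W)

section

variable {cs} [Finite W] [Fintype K] {p : ℕ} [Fact p.Prime] [CharP K p]

/-- the root group data -/
theorem rg : RGD cs isType_E7.isCartan p (TT chevE7 K) (fun i => (⟨nn isType_E7 K i, nn_mem_group isType_E7 i⟩ :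
    ↥(chevE7.group K))) (XX chevE7 7 K) := rgd isType_E7 cs p

theorem center_bot : Subgroup.center ↥(chevE7.group K) = ⊥ := center_eq_bot (S1054.result _ (by simp))

variable (hp2 : Odd p) (htr : ∀ α β, IsRoot cs isType_E7.isCartan α → IsRoot cs isType_E7.isCartan β →
  ∃ w, rep cs isType_E7.isCartan w α = β) {z : ↥(chevE7.group K)}
  (hz : Inv2 cs isType_E7.isCartan (TT chevE7 K) (XX chevE7 7 K) (toV th) z)

/-- `A` contains fundamental involutions if it contains a sign element `≠ 1` of the mask `m` -/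
def PZ (cs : CoxeterSystem CoxeterMatrix.E₇ W) (z : ↥(chevE7.group K)) (m : ℕ) : Prop :=
  ∀ A : Subgroup ↥(chevE7.group K), H255.IFK.Fix A → ∀ t ∈ A,
    SgnEl cs isType_E7.isCartan (TT chevE7 K) (XX chevE7 7 K) (bits 7 m) t → t ≠ 1 → ∃ y ∈ A, IsConj z y

variable (p) in
include p in
theorem PZ.step (j : Fin 7) (m : ℕ) (hP : PZ cs z (stepR rmE7 j m)) : PZ cs z m := by
  intro A hA t htA ht h1
  have R := rg (cs := cs) (K := K) (p := p)
  have h2 := ht.conj R (rp_simple cs R.nsys j)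
  rw [bits_step cs _ okR_E7] at h2
  obtain ⟨y, hy, hzy⟩ := hP _ (hA.conj _) _ (H255.IFK.conj_mem_conj htA) h2 fun h3 => h1 (by
    rw [mul_inv_eq_one, mul_eq_left] at h3
    exact h3)
  rw [H255.IFK.mem_conj] at hy
  exact ⟨_, hy, hzy.trans (isConj_iff.2 ⟨_, by rw [inv_inv]⟩)⟩

theorem PZ.zero : PZ cs z 0 := by
  intro A hA t htA ht h1
  exfalso
  apply h1
  refine SgnEl.unique (G1_eq_top isType_E7 cs) center_bot ht ⟨one_mem _, fun a _ _ u _ => by rw [one_mul, mul_one],
    fun a _ h2 => ?_⟩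
  exact absurd (by rw [bits_zero]; rfl) h2

include hz in
theorem PZ.one : PZ cs z 1 := by
  intro A hA t htA ht h1
  have h2 := hz.sgn
  rw [psi_eq cs th_mem mk_th hz.root] at h2
  exact ⟨t, htA, by rw [SgnEl.unique (G1_eq_top isType_E7 cs) center_bot ht h2]⟩

include hp2 htr hz

theorem exists_conj {β : Fin 7 → ℤ} (hβ : IsRoot cs isType_E7.isCartan β) :
    ∃ y, Inv2 cs isType_E7.isCartan (TT chevE7 K) (XX chevE7 7 K) β y ∧ IsConj z y := by
  have R := rg (cs := cs) (K := K) (p := p)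
  obtain ⟨w, rfl⟩ := htr _ β hz.root hβ
  obtain ⟨k, hk⟩ := exists_rp cs R.nsys w
  exact ⟨_, hz.conj R hk, isConj_iff.2 ⟨k, rfl⟩⟩

/-- **the chain** -/
theorem chain {n : ℕ} : ∀ (L : List (V × ℕ)) (c : ℕ), okC n L = true →
    H203.IF.Phi (RGD.Sup (XX chevE7 7 K) (EP cs isType_E7.isCartan (bits 7 n) ((L.map Prod.fst).map toV)))
      {y | IsConj z y} c →
    H203.IF.Phi (RGD.Sup (XX chevE7 7 K) (EP cs isType_E7.isCartan (bits 7 n) [])) {y | IsConj z y}
      (Fintype.card K ^ (L.map fun x => x.2 + 1).sum * c) := by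
  have R := rg (cs := cs) (K := K) (p := p)
  have hG := G1_eq_top (K := K) isType_E7 cs
  obtain ⟨hq, hodd, h2⟩ := ESix.three_le hp2 K
  have hzz : z * z = 1 := sgn_sq hG center_bot hz.sgn
  intro L
  induction L with
  | nil =>
    intro c _ h
    simpa using h
  | cons x L ih =>
    obtain ⟨a, d⟩ := x
    intro c hok hphi
    rw [okC, Bool.and_eq_true] at hok
    obtain ⟨hS, hok⟩ := hok
    simp only [okS, Bool.and_eq_true, decide_eq_true_eq, List.all_eq_true, List.contains_iff_mem] at hS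
    obtain ⟨⟨⟨⟨⟨hC, ha⟩, hev⟩, horth⟩, hc1⟩, hc2⟩ := hS
    have har := (isRoot_iff' cs (toV a)).2 ⟨a, ha, rfl⟩
    obtain ⟨y, hy, hzy⟩ := exists_conj (cs := cs) hp2 htr hz har
    have key := phiP_step R (sl cs) (fun α hα => Chev.ab_X isType_E7 K cs hα)
      (fun α hα => by rw [Chev.card_X isType_E7 K cs hα, Nat.card_eq_fintype_card]) hq hodd (φ := bits 7 n)
      (C := (L.map Prod.fst).map toV) (fun c hc => by
        obtain ⟨c', hc', rfl⟩ := List.mem_map.1 hc
        exact (isRoot_iff' cs _).2 ⟨c', hC c' hc', rfl⟩) (α := toV a) (mem_EP cs hC ha hev horth) (d := d)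
      (SP (orP n (L.map Prod.fst) a)) (SP (orP n (L.map Prod.fst) (-a))) (mem_orP cs hC ha)
      (fun x => by rw [mem_orP cs hC (neg_mem _ ha), toV_neg]) (by rw [card_SP, hc1]) (by rw [card_SP, hc2])
      (Zs := {y | IsConj z y}) (by
        rintro y hy
        obtain ⟨g, rfl⟩ := isConj_iff.1 hy
        have : g * z * g⁻¹ * (g * z * g⁻¹) = g * (z * z) * g⁻¹ := by group
        rw [this, hzz, mul_one, mul_inv_cancel]) (by
        intro g _ y hy
        exact IsConj.trans hy (isConj_iff.2 ⟨g, rfl⟩)) hy hzy hphi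
    have h3 := ih _ hok key
    rw [List.map_cons, List.sum_cons]
    have e : Fintype.card K ^ ((L.map fun x => x.2 + 1).sum) * (Fintype.card K ^ (d + 1) * c) =
        Fintype.card K ^ ((d + 1) + (L.map fun x => x.2 + 1).sum) * c := by
      rw [pow_add _ (d + 1)]
      ring
    rwa [e] at h3

omit htr hz in
/-- the length of a class of sign elements -/
theorem idx {m c N : ℕ} (hc : (RT.filter (posP m)).length = c) (hN : 2 * c + N = 133) {t : ↥(chevE7.group K)}
    (ht : SgnEl cs isType_E7.isCartan (TT chevE7 K) (XX chevE7 7 K) (bits 7 m) t) :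
    (Subgroup.centralizer ({t} : Set ↥(chevE7.group K))).index * (Fintype.card K - 1) ^ 7 ≤ Fintype.card K ^ N := by
  have R := rg (cs := cs) (K := K) (p := p)
  have h3 := (ESix.three_le hp2 K).1
  refine index_bound R (sl cs) (diag_comm isType_E7 K) (fun α hα => ?_) ht (SP (posP m)) (mem_posP cs m) (by omega) ?_
  · rw [Chev.card_X isType_E7 K cs hα, Nat.card_eq_fintype_card]
  · rw [card_SP, hc, hN]
    have := H897.IF.num_E7 (K := K)
    rwa [Nat.card_eq_fintype_card (α := K)] at this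

/-- the classes of sign elements with a long chain -/
theorem PZ.of_chain {m c N : ℕ} (L : List (V × ℕ)) (hok : okC m L = true)
    (hc : (RT.filter (posP m)).length = c) (hN : 2 * c + N = 133) (hlt : N ≤ (L.map fun x => x.2 + 1).sum * 5) :
    PZ cs z m := by
  intro A hA t htA ht h1
  have hG := G1_eq_top (K := K) isType_E7 cs
  obtain ⟨hq, hodd, h2⟩ := ESix.three_le hp2 K
  by_contra hcon
  push Not at hcon
  obtain ⟨f, hf1, hf2⟩ := Fix_bound hA htA (sgn_order hG center_bot ht h1)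
  set e := (L.map fun x => x.2 + 1).sum with he
  have h3 := chain (cs := cs) hp2 htr hz (n := m) L 1 hok (Phi_one _ _)
    (A ⊓ RGD.Sup (XX chevE7 7 K) (EP cs isType_E7.isCartan (bits 7 m) [])) inf_le_right
    (fun y hy hyA => hcon y (Subgroup.mem_inf.1 hyA).1 hy)
  rw [Subgroup.inf_relIndex_right, mul_one, ← he] at h3
  have h4 := h3.trans (hf1 _ (EP_le_cent ht []))
  have h5 := idx (cs := cs) hp2 hc hN ht
  have h6 : (Fintype.card K ^ e) ^ 5 ≤ f ^ 5 := Nat.pow_le_pow_left h4 5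
  have h7 : 0 < (Fintype.card K - 1) ^ 7 := pow_pos (by omega) 7
  have h8 : Fintype.card K ^ N < Fintype.card K ^ N := by
    calc Fintype.card K ^ N ≤ Fintype.card K ^ (e * 5) := Nat.pow_le_pow_right (by omega) hlt
      _ = (Fintype.card K ^ e) ^ 5 := pow_mul _ _ _
      _ ≤ f ^ 5 := h6
      _ < _ := hf2
      _ ≤ (Subgroup.centralizer ({t} : Set ↥(chevE7.group K))).index * (Fintype.card K - 1) ^ 7 :=
        Nat.le_mul_of_pos_right _ h7
      _ ≤ _ := h5
  exact lt_irrefl _ h8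

/-- **all masks** -/
theorem PZ.all {m : ℕ} (hm : m < 2 ^ 7) : PZ cs z m := by
  refine orbit_all (rm := rmE7) (fun j n => PZ.step p j n) okL_E7 (fun m hm => ?_) hm
  have hc : ∀ m : ℕ, (18446744073709551623 : ℕ).testBit m = true → m = 0 ∨ m = 1 ∨ m = 64 ∨ m = 2 := by
    intro m hm
    by_cases h : m < 65
    · revert hm
      revert m
      decide +kernel
    · exfalso
      rw [Nat.testBit_lt_two_pow (lt_of_lt_of_le (by norm_num : (18446744073709551623 : ℕ) < 2 ^ 65)
        (Nat.pow_le_pow_right (by norm_num) (not_lt.1 h)))] at hm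
      exact absurd hm (by decide)
  rcases hc m hm with rfl | rfl | rfl | rfl
  · exact PZ.zero
  · exact PZ.one hz
  · exact PZ.of_chain hp2 htr hz chE ok_E tab_pos_64 (N := 61) (by norm_num) (by decide)
  · exact PZ.of_chain hp2 htr hz chA ok_A tab_pos_2 (N := 77) (by norm_num) (by decide)

/-- **toral involutions** -/
theorem toral {A : Subgroup ↥(chevE7.group K)} (hA : H255.IFK.Fix A) {t k : ↥(chevE7.group K)} (htA : t ∈ A)
    (htt : t * t = 1) (h1 : t ≠ 1) (hk : k⁻¹ * t * k ∈ TT chevE7 K) : ∃ y ∈ A, IsConj z y := by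
  have hsq : k⁻¹ * t * k * (k⁻¹ * t * k) = 1 := by
    have : k⁻¹ * t * k * (k⁻¹ * t * k) = k⁻¹ * (t * t) * k := by group
    rw [this, htt, mul_one, inv_mul_cancel]
  obtain ⟨m, hm, hs⟩ := exists_sgn isType_E7 cs p (LrIso.odd_card (F := K) hp2).2 hk hsq
  obtain ⟨y, hy, hzy⟩ := PZ.all (cs := cs) (K := K) hp2 htr hz hm _ (hA.conj k⁻¹) (k⁻¹ * t * k) (by
    rw [H255.IFK.mem_conj]
    have : k⁻¹⁻¹ * (k⁻¹ * t * k) * k⁻¹ = t := by group
    rwa [this]) hs (by
    intro h
    apply h1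
    have : t = k * (k⁻¹ * t * k) * k⁻¹ := by group
    rw [this, h, mul_one, mul_inv_cancel])
  rw [H255.IFK.mem_conj] at hy
  exact ⟨_, hy, hzy.trans (isConj_iff.2 ⟨k, by group⟩)⟩

end

end Cfsg.Agent.H190.IF.ESeven
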