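import Cfsg.Agent.H190.IF.Core
import Cfsg.Agent.H557.LrChev
import Cfsg.Agent.H17.IFSp.LR

/-!
# S5719: data of `D.group K` for the steps `H190.IF.Core` (helper190)

* `card_X`, `ab_X` : the root groups are abelian of order `|K|`;
* `inv2_simple` : `Inv2` for the fundamental roots.
-/

set_option autoImplicit false
set_option linter.unusedSectionVars false

namespace Cfsg.Agent.H190.IF.Chev

open CoxeterSystem
open Cfsg Cfsg.Lie Cfsg.Lie.ChevalleyDatum
open Cfsg.Agent.ChevalleyStructure Cfsg.Agent.ChevalleyStructure.Elts Cfsg.Agent.ChevalleyStructure.CoxeterGeom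
  Cfsg.Agent.ChevalleyStructure.RootVec Cfsg.Agent.ChevalleyStructure.RootVecTab
  Cfsg.Agent.ChevalleyStructure.CoxeterGeomTypes Cfsg.Agent.ChevalleyStructure.NPerm
open Cfsg.Agent.Tits.Roots Cfsg.Agent.Tits.Core Cfsg.Agent.Nodes.Reps Cfsg.Agent.Nodes.BNOf Cfsg.Agent.Nodes.RGDChev
  Cfsg.Agent.Nodes.Bruhat Cfsg.Agent.Nodes.Coroot
open Cfsg.Agent.OddHalf.LongSL Cfsg.Agent.OddHalf.LongSL.Chev
open Cfsg.Agent.KFacts.RgdChevCoord (TT XX nc xc ch act coe_xc)
open Cfsg.Agent.GenExc Cfsg.Agent.GenExc.Chev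
open Cfsg.Agent.H557.LrSgn Cfsg.Agent.H557.LrChev
open Cfsg.Agent.ChevalleyStructure.SL2Hom (up lo)
open scoped commutatorElement MatrixGroups

/-- `-1 ∈ ⟨up a, lo b⟩` -/
theorem neg_one_mem {F : Type*} [Field F] [Finite F] (h2 : (2 : F) ≠ 0) {a b : F} (ha : a ≠ 0) (hb : b ≠ 0) :
    (-1 : SL(2, F)) ∈ Subgroup.closure {up a, lo b} := by
  refine Cfsg.Agent.H17.IFSp.lr_sl2 h2 ha hb _ (fun g hg => ?_) (fun g hg => ?_)
  · have : g = lo b := Subtype.ext hg
    rw [this]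
    exact Subgroup.subset_closure (Or.inr rfl)
  · have : g = up a := Subtype.ext hg
    rw [this]
    exact Subgroup.subset_closure (Or.inl rfl)

variable {D : ChevalleyDatum} {l : ℕ} {M : CoxeterMatrix (Fin l)} (hp : IsType D l M) (K : Type) [Field K]
  {W : Type*} [Group W] (cs : CoxeterSystem M W)

theorem card_X {α : Fin l → ℤ} (hα : IsRoot cs hp.isCartan α) : Nat.card (XX D l K α) = Nat.card K := by
  obtain ⟨r, hr, rfl⟩ := (isRoot_iff hp cs α).1 hα
  refine (Nat.card_congr (Equiv.ofBijective (fun t : K => (⟨⟨xG hp.inList r t, xG_mem_group hp.inList r t⟩,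
    (mem_XX hp K hr).2 ⟨t, rfl⟩⟩ : XX D l K (vec D l r))) ⟨?_, ?_⟩)).symm
  · intro a b hab
    have h1 : xG hp.inList r a = xG hp.inList r b := congrArg (fun u : XX D l K (vec D l r) => ((u : ↥(D.group K)) : GL D.Idx K)) hab
    exact xG_injective hp.inList hr h1
  · rintro ⟨u, hu⟩
    obtain ⟨t, ht⟩ := (mem_XX hp K hr).1 hu
    exact ⟨t, Subtype.ext (Subtype.ext ht.symm)⟩

theorem ab_X {α : Fin l → ℤ} (hα : IsRoot cs hp.isCartan α) :
    ∀ u ∈ XX D l K α, ∀ v ∈ XX D l K α, u * v = v * u := by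
  obtain ⟨r, hr, rfl⟩ := (isRoot_iff hp cs α).1 hα
  intro u hu v hv
  obtain ⟨s, hs⟩ := (mem_XX hp K hr).1 hu
  obtain ⟨t, ht⟩ := (mem_XX hp K hr).1 hv
  apply Subtype.ext
  rw [Subgroup.coe_mul, Subgroup.coe_mul, hs, ht, xG_add, xG_add, add_comm]

theorem csz_single [Finite W] (i : Fin l) : csz (cartanOf D l) [i] = psi (isRoot_sr cs hp.isCartan i) := by
  refine AddMonoidHom.ext fun x => ?_
  rw [csz_apply, psi_apply, cpr_sr]
  congr 1
  show pairing _ i x + 0 = _
  rw [add_zero]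

theorem inv2_simple [Finite W] [Finite K] (h2 : (2 : K) ≠ 0) (i : Fin l) :
    Inv2 cs hp.isCartan (TT D K) (XX D l K) (sr i) (zS hp K [i]) := by
  refine ⟨isRoot_sr cs hp.isCartan i, ?_, ?_⟩
  · rw [← csz_single hp cs i]
    exact sgnEl_zS hp K cs [i]
  · have h0 := RootVec.simple_lt hp.checked (lt_rank hp i)
    have e1 : (sr i : Fin l → ℤ) = vec D l (D.simple i) := (vec_simple hp i).symm
    have e2 : (-sr i : Fin l → ℤ) = vec D l (D.neg (D.simple i)) := by rw [vec_neg hp h0, vec_simple hp i]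
    intro u hu v hv hu1 hv1
    rw [e1] at hu
    rw [e2] at hv
    obtain ⟨s, hs⟩ := (mem_XX hp K h0).1 hu
    obtain ⟨t, ht⟩ := (mem_XX hp K (neg_lt hp.checked h0)).1 hv
    have hs0 : s ≠ 0 := by
      rintro rfl
      apply hu1
      apply Subtype.ext
      rw [hs, xG_zero]
      rfl
    have ht0 : t ≠ 0 := by
      rintro rfl
      apply hv1
      apply Subtype.ext
      rw [ht, xG_zero]
      rfl
    have e3 : u = phi hp K i (up s) := Subtype.ext (by rw [hs, phi_up])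
    have e4 : v = phi hp K i (lo t) := Subtype.ext (by rw [ht, phi_lo])
    have h3 : phi hp K i (-1) ∈ (Subgroup.closure {up s, lo t}).map (phi hp K i) :=
      ⟨-1, neg_one_mem h2 hs0 ht0, rfl⟩
    rw [MonoidHom.map_closure, Set.image_pair, ← e3, ← e4] at h3
    rw [zS_cons, zS_nil, mul_one]
    exact h3

end Cfsg.Agent.H190.IF.Chev
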