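import Cfsg.Agent.H190.IF.Core

/-!
# S5719: the induction steps for the roots killed by a character (helper190)

`EP φ C` : the roots `x` with `φ x = 0` orthogonal to the members of `C`; `phiP_step`, `phiP_start`.
-/

set_option autoImplicit false
set_option linter.unusedSectionVars false

namespace Cfsg.Agent.H190.IF

open CoxeterSystem Cfsg.Agent.ChevalleyStructure.CoxeterGeom Cfsg.Agent.Tits.Roots Cfsg.Agent.Tits.Core
  Cfsg.Agent.Tits.Exchange Cfsg.Agent.Nodes.Reps Cfsg.Agent.Nodes.BNOf Cfsg.Agent.Nodes.StabComb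
  Cfsg.Agent.Nodes.Bruhat Cfsg.Agent.Nodes.OppDec Cfsg.Agent.Nodes.PosPair Cfsg.Agent.Nodes.Coroot
  Cfsg.Agent.Nodes.Unique Cfsg.Agent.KFacts.RgdSL Cfsg.Agent.H557.LrSgn
open scoped commutatorElement

variable {I W Y : Type*} [Fintype I] [DecidableEq I] [Group W] [Group Y] {M : CoxeterMatrix I}
  {cs : CoxeterSystem M W} {A : I → I → ℤ} {h : IsCartan M A} {p : ℕ} {T : Subgroup Y} {n : I → Y}
  {X : (I → ℤ) → Subgroup Y}

section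

variable [Finite W] [Finite Y] (R : RGD cs h p T n X) (hs : SL cs h)
  (hab : ∀ α, IsRoot cs h α → ∀ u ∈ X α, ∀ v ∈ X α, u * v = v * u) {q : ℕ}
  (hcard : ∀ α, IsRoot cs h α → Nat.card (X α) = q) (hq : 3 ≤ q) (hodd : Odd q)

include R hs hab hcard hq hodd

/-- the roots killed by `φ` and orthogonal to the members of `C` -/
def EP (cs : CoxeterSystem M W) (h : IsCartan M A) (φ : (I → ℤ) →+ ZMod 2) (C : List (I → ℤ)) : Set (I → ℤ) :=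
  {x | IsRoot cs h x ∧ φ x = 0 ∧ ∀ c ∈ C, cpr cs h x c = 0}

omit R hs hab hcard hq hodd in
theorem EP_mono (φ : (I → ℤ) →+ ZMod 2) (α : I → ℤ) (C : List (I → ℤ)) : EP cs h φ (α :: C) ⊆ EP cs h φ C :=
  fun _ hx => ⟨hx.1, hx.2.1, fun c hc => hx.2.2 c (List.mem_cons_of_mem _ hc)⟩

/-- **the induction step** -/
theorem phiP_step {φ : (I → ℤ) →+ ZMod 2} {C : List (I → ℤ)} (hC : ∀ c ∈ C, IsRoot cs h c) {α : I → ℤ}
    (hα : α ∈ EP cs h φ C) {d : ℕ}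
    (S₁ S₂ : Finset (I → ℤ)) (hS₁ : ∀ β, β ∈ S₁ ↔ β ∈ EP cs h φ C ∧ cpr cs h β α = 1)
    (hS₂ : ∀ β, β ∈ S₂ ↔ β ∈ EP cs h φ C ∧ cpr cs h β (-α) = 1) (hc₁ : S₁.card = 2 * d) (hc₂ : S₂.card = 2 * d)
    {Zs : Set Y} (hZ2 : ∀ z ∈ Zs, z * z = 1) (hZc : ∀ g ∈ RGD.Sup X (EP cs h φ C), ∀ z ∈ Zs, g * z * g⁻¹ ∈ Zs)
    {z : Y} (hz : Inv2 cs h T X α z) (hzZ : z ∈ Zs) {c : ℕ}
    (hphi : H203.IF.Phi (RGD.Sup X (EP cs h φ (α :: C))) Zs c) :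
    H203.IF.Phi (RGD.Sup X (EP cs h φ C)) Zs (q ^ (d + 1) * c) := by
  have hαr := hα.1
  have hmk : ∀ α', IsRoot cs h α' → α' ∈ EP cs h φ C → (∀ x, IsRoot cs h x → cpr cs h x α = 0 → cpr cs h x α' = 0) →
      ∀ S : Finset (I → ℤ), (∀ β, β ∈ S ↔ β ∈ EP cs h φ C ∧ cpr cs h β α' = 1) → S.card = 2 * d →
      H203.IF.Heis (X α') X S (fun β => α' - β) ∧ H203.IF.QQ (X α') X S ≤ RGD.Sup X (EP cs h φ C) ∧
      Nat.card (H203.IF.QQ (X α') X S) = q ^ (2 * d + 1) ∧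
      (∀ l ∈ RGD.Sup X (EP cs h φ (α :: C)), ∀ u ∈ H203.IF.QQ (X α') X S, l * u * l⁻¹ ∈ H203.IF.QQ (X α') X S) := by
    intro α' hα'r hα' hperp S hS hSc
    have H : H203.IF.Heis (X α') X S (fun β => α' - β) := heis_root R hs hab hα'r S
      (fun β hβ => ⟨((hS β).1 hβ).1.1, ((hS β).1 hβ).2⟩) (fun β hβ => by
        obtain ⟨⟨h1, h0, h2⟩, h3⟩ := (hS β).1 hβ
        rw [hS]
        have e : α' - β = α' + (-1 : ℤ) • β := by rw [neg_one_smul, sub_eq_add_neg]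
        refine ⟨⟨isRoot_sub hα'r h1 (by rw [hs α' β hα'r h1, h3]), by rw [map_sub, hα'.2.1, h0, sub_zero],
          fun c hc => ?_⟩, ?_⟩
        · rw [e, cpr_add cs h _ _ (hC c hc), cpr_smul cs h _ _ (hC c hc), hα'.2.2 c hc, h2 c hc]
          norm_num
        · rw [e, cpr_add cs h _ _ hα'r, cpr_smul cs h _ _ hα'r, cpr_self cs h hα'r, h3]
          norm_num)
    refine ⟨H, H203.IF.Heis.QQ_le (RGD.le_Sup hα') fun β hβ => RGD.le_Sup ((hS β).1 hβ).1, ?_, ?_⟩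
    · rw [card_QQ' H (X_ne_bot R hα'r) (hcard α' hα'r) (fun β hβ => hcard β ((hS β).1 hβ).1.1), hSc]
    · intro l hl u hu
      refine norm_QQ R hs hab hα'r S (fun β hβ => ⟨((hS β).1 hβ).1.1, ((hS β).1 hβ).2⟩) ?_ ?_ hl hu
      · intro γ hγ
        exact ⟨hγ.1, hperp γ hγ.1 (hγ.2.2 α List.mem_cons_self)⟩
      · intro γ hγ β hβ hγβ
        obtain ⟨⟨h1, h0, h2⟩, h3⟩ := (hS β).1 hβ
        rw [hS]
        refine ⟨⟨hγβ, by rw [map_add, hγ.2.1, h0, add_zero], fun c hc => ?_⟩, ?_⟩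
        · rw [cpr_add cs h _ _ (hC c hc), hγ.2.2 c (List.mem_cons_of_mem _ hc), h2 c hc, add_zero]
        · rw [cpr_add cs h _ _ hα'r, hperp γ hγ.1 (hγ.2.2 α List.mem_cons_self), h3, zero_add]
  have hαn : -α ∈ EP cs h φ C := ⟨hαr.neg, by rw [map_neg, hα.2.1, neg_zero], fun c hc => by
    rw [cpr_neg_left _ (hC c hc), hα.2.2 c hc, neg_zero]⟩
  obtain ⟨H₁, hL₁, hk₁, hn₁⟩ := hmk α hαr hα (fun x _ hx => hx) S₁ hS₁ hc₁
  obtain ⟨H₂, hL₂, hk₂, hn₂⟩ := hmk (-α) hαr.neg hαn (fun x _ hx => by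
    rw [cpr_neg_right cs h x hαr, hx, neg_zero]) S₂ hS₂ hc₂
  have ho : Odd (q ^ (2 * d + 1)) := hodd.pow
  refine H203.IF.Phi.step H₁ H₂ hphi (RGD.Sup_mono (EP_mono φ α C)) hL₁ hL₂ (by rw [hk₁]; exact ho)
    (by rw [hk₂]; exact ho) hn₁ hn₂ ?_ ?_ (X_ne_bot R hαr) (X_ne_bot R hαr.neg) hZ2 hZc
    (fun u hu v hv hu1 hv1 => ⟨z, hzZ, hz.opp u hu v hv hu1 hv1⟩)
  · rw [hk₁, hcard α hαr]
    exact le_of_eq (by ring)
  · rw [hk₂, hcard _ hαr.neg]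
    exact le_of_eq (by ring)

/-- the start of the induction -/
theorem phiP_start {φ : (I → ℤ) →+ ZMod 2} {C : List (I → ℤ)} (hC : ∀ c ∈ C, IsRoot cs h c) {α : I → ℤ}
    (hα : α ∈ EP cs h φ C)
    {Zs : Set Y} {z : Y} (hz : Inv2 cs h T X α z) (hzZ : z ∈ Zs) :
    H203.IF.Phi (RGD.Sup X (EP cs h φ C)) Zs q := by
  have hαn : -α ∈ EP cs h φ C := ⟨hα.1.neg, by rw [map_neg, hα.2.1, neg_zero], fun c hc => by
    rw [cpr_neg_left _ (hC c hc), hα.2.2 c hc, neg_zero]⟩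
  exact H203.IF.Phi.start (RGD.le_Sup hα) (RGD.le_Sup hαn) (hcard α hα.1).ge (hcard _ hα.1.neg).ge
    (fun u hu v hv hu1 hv1 => ⟨z, hzZ, hz.opp u hu v hv hu1 hv1⟩)

omit [Finite W] [Finite Y] R hs hab hcard hq hodd in
theorem EP_le_cent {φ : (I → ℤ) →+ ZMod 2} {t : Y} (ht : SgnEl cs h T X φ t) (C : List (I → ℤ)) :
    RGD.Sup X (EP cs h φ C) ≤ Subgroup.centralizer {t} :=
  RGD.Sup_le fun x hx u hu => Subgroup.mem_centralizer_singleton_iff.2 (ht.fix x hx.1 hx.2.1 u hu).symm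

end

end Cfsg.Agent.H190.IF
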