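import Cfsg.Agent.H190.IF.Chev
import Cfsg.Agent.GenExc.Data
import Cfsg.Agent.UGT.U2.FOne.TriComb
import Cfsg.Agent.Nodes.SimplyLaced
import Cfsg.Agent.S1063
import Cfsg.Agent.S1035

/-!
# S5719: the roots of `E₆` (helper190)

* `RT`, `toV` : the table of the roots; `bV` : the form; `evV n` : the mask `n`;
* `isRoot_iff'`, `cpr_toV`, `bits_toV`;
* `SP P` : the finite set of the roots with `P`;
* `tab_*` : kernel computations;
* `card_le` : `|E₆(q)| (q-1)⁶ ≤ |T| q⁷⁸`.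
-/

set_option autoImplicit false
set_option linter.unusedSectionVars false

namespace Cfsg.Agent.H190.IF.Tab6

open CoxeterSystem
open Cfsg Cfsg.Lie Cfsg.Lie.ChevalleyDatum
open Cfsg.Agent.ChevalleyStructure Cfsg.Agent.ChevalleyStructure.CoxeterGeom
  Cfsg.Agent.ChevalleyStructure.CoxeterGeomTypes
open Cfsg.Agent.Tits.Roots Cfsg.Agent.Tits.Core Cfsg.Agent.Nodes.Reps Cfsg.Agent.Nodes.BNOf Cfsg.Agent.Nodes.RGDChev
  Cfsg.Agent.Nodes.Coroot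
open Cfsg.Agent.KFacts.RgdChevCoord (TT XX)
open Cfsg.Agent.KFacts.RgdSL (SL)
open Cfsg.Agent.GenExc.Chev (isType_E6)
open Cfsg.Agent.H557.LrOrb (bits)

/-! ### The table -/

/-- vectors -/
abbrev V := ℤ × ℤ × ℤ × ℤ × ℤ × ℤ

/-- vectors as functions -/
def toV (v : V) : Fin 6 → ℤ := ![v.1, v.2.1, v.2.2.1, v.2.2.2.1, v.2.2.2.2.1, v.2.2.2.2.2]

theorem toV_inj : Function.Injective toV := by
  rintro ⟨a, b, c, d, e, f⟩ ⟨a', b', c', d', e', f'⟩ h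
  have h0 : a = a' := congrFun h 0
  have h1 : b = b' := congrFun h 1
  have h2 : c = c' := congrFun h 2
  have h3 : d = d' := congrFun h 3
  have h4 : e = e' := congrFun h 4
  have h5 : f = f' := congrFun h 5
  rw [h0, h1, h2, h3, h4, h5]

/-- the 72 roots -/
def RT : List V :=
  [(-1, -2, -2, -3, -2, -1), (-1, -1, -2, -3, -2, -1), (-1, -1, -2, -2, -2, -1), (-1, -1, -2, -2, -1, -1), (-1, -1, -2,
   -2, -1, 0), (-1, -1, -1, -2, -2, -1), (-1, -1, -1, -2, -1, -1), (-1, -1, -1, -2, -1, 0), (-1, -1, -1, -1, -1, -1),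
   (-1, -1, -1, -1, -1, 0), (-1, -1, -1, -1, 0, 0), (-1, 0, -1, -1, -1, -1), (-1, 0, -1, -1, -1, 0), (-1, 0, -1, -1, 0,
   0), (-1, 0, -1, 0, 0, 0), (-1, 0, 0, 0, 0, 0), (0, -1, -1, -2, -2, -1), (0, -1, -1, -2, -1, -1), (0, -1, -1, -2, -1,
   0), (0, -1, -1, -1, -1, -1), (0, -1, -1, -1, -1, 0), (0, -1, -1, -1, 0, 0), (0, -1, 0, -1, -1, -1), (0, -1, 0, -1, -1,
   0), (0, -1, 0, -1, 0, 0), (0, -1, 0, 0, 0, 0), (0, 0, -1, -1, -1, -1), (0, 0, -1, -1, -1, 0), (0, 0, -1, -1, 0, 0),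
   (0, 0, -1, 0, 0, 0), (0, 0, 0, -1, -1, -1), (0, 0, 0, -1, -1, 0), (0, 0, 0, -1, 0, 0), (0, 0, 0, 0, -1, -1), (0, 0, 0,
   0, -1, 0), (0, 0, 0, 0, 0, -1), (0, 0, 0, 0, 0, 1), (0, 0, 0, 0, 1, 0), (0, 0, 0, 0, 1, 1), (0, 0, 0, 1, 0, 0), (0, 0,
   0, 1, 1, 0), (0, 0, 0, 1, 1, 1), (0, 0, 1, 0, 0, 0), (0, 0, 1, 1, 0, 0), (0, 0, 1, 1, 1, 0), (0, 0, 1, 1, 1, 1), (0,
   1, 0, 0, 0, 0), (0, 1, 0, 1, 0, 0), (0, 1, 0, 1, 1, 0), (0, 1, 0, 1, 1, 1), (0, 1, 1, 1, 0, 0), (0, 1, 1, 1, 1, 0),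
   (0, 1, 1, 1, 1, 1), (0, 1, 1, 2, 1, 0), (0, 1, 1, 2, 1, 1), (0, 1, 1, 2, 2, 1), (1, 0, 0, 0, 0, 0), (1, 0, 1, 0, 0,
   0), (1, 0, 1, 1, 0, 0), (1, 0, 1, 1, 1, 0), (1, 0, 1, 1, 1, 1), (1, 1, 1, 1, 0, 0), (1, 1, 1, 1, 1, 0), (1, 1, 1, 1,
   1, 1), (1, 1, 1, 2, 1, 0), (1, 1, 1, 2, 1, 1), (1, 1, 1, 2, 2, 1), (1, 1, 2, 2, 1, 0), (1, 1, 2, 2, 1, 1), (1, 1, 2,
   2, 2, 1), (1, 1, 2, 3, 2, 1), (1, 2, 2, 3, 2, 1)]

/-- the form -/
def bV (x y : V) : ℤ :=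
  2 * (x.1 * y.1 + x.2.1 * y.2.1 + x.2.2.1 * y.2.2.1 + x.2.2.2.1 * y.2.2.2.1 + x.2.2.2.2.1 * y.2.2.2.2.1 +
    x.2.2.2.2.2 * y.2.2.2.2.2) - (x.1 * y.2.2.1 + x.2.2.1 * y.1 + x.2.2.1 * y.2.2.2.1 + x.2.2.2.1 * y.2.2.1 +
    x.2.1 * y.2.2.2.1 + x.2.2.2.1 * y.2.1 + x.2.2.2.1 * y.2.2.2.2.1 + x.2.2.2.2.1 * y.2.2.2.1 +
    x.2.2.2.2.1 * y.2.2.2.2.2 + x.2.2.2.2.2 * y.2.2.2.2.1)

/-- the sum of the coefficients in the mask -/
def sV (n : ℕ) (x : V) : ℤ :=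
  (if n.testBit 0 then x.1 else 0) + (if n.testBit 1 then x.2.1 else 0) + (if n.testBit 2 then x.2.2.1 else 0) +
    (if n.testBit 3 then x.2.2.2.1 else 0) + (if n.testBit 4 then x.2.2.2.2.1 else 0) +
    (if n.testBit 5 then x.2.2.2.2.2 else 0)

/-- even roots of the mask `n` -/
def evV (n : ℕ) (x : V) : Bool := decide (sV n x % 2 = 0)

/-- non-negative vectors -/
def nnV (x : V) : Bool :=
  decide (0 ≤ x.1) && decide (0 ≤ x.2.1) && decide (0 ≤ x.2.2.1) && decide (0 ≤ x.2.2.2.1) &&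
    decide (0 ≤ x.2.2.2.2.1) && decide (0 ≤ x.2.2.2.2.2)

theorem nnV_iff (x : V) : nnV x = true ↔ 0 ≤ toV x := by
  obtain ⟨a, b, c, d, e, f⟩ := x
  simp only [nnV, Bool.and_eq_true, decide_eq_true_eq, Pi.le_def, Pi.zero_apply, Fin.forall_fin_succ, toV]
  constructor
  · rintro ⟨⟨⟨⟨⟨h0, h1⟩, h2⟩, h3⟩, h4⟩, h5⟩
    exact ⟨h0, h1, h2, h3, h4, h5, fun i => i.elim0⟩
  · rintro ⟨h0, h1, h2, h3, h4, h5, -⟩
    exact ⟨⟨⟨⟨⟨h0, h1⟩, h2⟩, h3⟩, h4⟩, h5⟩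

set_option backward.isDefEq.respectTransparency false in
theorem tab_to : ∀ r : Fin 72, ∃ v ∈ RT, toV v = vec chevE6 6 r := by decide +kernel

set_option backward.isDefEq.respectTransparency false in
theorem tab_from : ∀ v ∈ RT, ∃ r : Fin 72, vec chevE6 6 r = toV v := by decide +kernel

/-- the Cartan matrix -/
def C6 : Fin 6 → Fin 6 → ℤ :=
  ![![2, 0, -1, 0, 0, 0], ![0, 2, 0, -1, 0, 0], ![-1, 0, 2, -1, 0, 0], ![0, -1, -1, 2, -1, 0],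
    ![0, 0, 0, -1, 2, -1], ![0, 0, 0, 0, -1, 2]]

set_option backward.isDefEq.respectTransparency false in
theorem cartanOf_eq : cartanOf chevE6 6 = C6 := by
  funext i j
  revert i j
  decide +kernel

variable {W : Type*} [Group W] (cs : CoxeterSystem CoxeterMatrix.E₆ W)

theorem isRoot_iff' (x : Fin 6 → ℤ) : IsRoot cs isType_E6.isCartan x ↔ ∃ v ∈ RT, toV v = x := by
  rw [isRoot_iff isType_E6 cs]
  constructor
  · rintro ⟨r, hr, rfl⟩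
    exact tab_to ⟨r, hr⟩
  · rintro ⟨v, hv, rfl⟩
    obtain ⟨r, hr⟩ := tab_from v hv
    exact ⟨r, r.2, hr⟩

set_option backward.isDefEq.respectTransparency false in
theorem ne6 : ∀ i j : Fin 6, CoxeterMatrix.E₆ i j ≠ 4 ∧ CoxeterMatrix.E₆ i j ≠ 6 := by decide

theorem sl [Finite W] : SL cs isType_E6.isCartan :=
  fun _ _ hx hy => Cfsg.Agent.Nodes.SimplyLaced.cpr_symm cs isType_E6.isCartan (fun i j => (ne6 i j).1)
    (fun i j => (ne6 i j).2) hx hy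

theorem cpr_toV [Finite W] (v w : V) (hw : w ∈ RT) : cpr cs isType_E6.isCartan (toV v) (toV w) = bV v w := by
  rw [Cfsg.Agent.UGT.U2.FOne.Triality.cpr_sum (sl cs) _ ((isRoot_iff' cs _).2 ⟨w, hw, rfl⟩), cartanOf_eq]
  obtain ⟨a, b, c, d, e, f⟩ := v
  obtain ⟨a', b', c', d', e', f'⟩ := w
  simp only [pairing, Fin.sum_univ_succ, toV, C6, bV]
  simp
  ring

theorem bits_toV (n : ℕ) (v : V) : bits 6 n (toV v) = ((sV n v : ℤ) : ZMod 2) := by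
  obtain ⟨a, b, c, d, e, f⟩ := v
  show (∑ k : Fin 6, if n.testBit k then ((toV (a, b, c, d, e, f) k : ℤ) : ZMod 2) else 0) = _
  simp only [Fin.sum_univ_succ, toV, sV]
  simp
  ring

theorem bits_iff (n : ℕ) (v : V) : bits 6 n (toV v) = 0 ↔ evV n v = true := by
  rw [bits_toV, ZMod.intCast_zmod_eq_zero_iff_dvd, evV, decide_eq_true_eq]
  exact Int.dvd_iff_emod_eq_zero

/-- the roots with `P` -/
def SP (P : V → Bool) : Finset (Fin 6 → ℤ) := ((RT.filter P).map toV).toFinset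

theorem mem_SP (P : V → Bool) (x : Fin 6 → ℤ) : x ∈ SP P ↔ ∃ v ∈ RT, P v = true ∧ toV v = x := by
  unfold SP
  rw [List.mem_toFinset, List.mem_map]
  constructor
  · rintro ⟨v, hv, rfl⟩
    rw [List.mem_filter] at hv
    exact ⟨v, hv.1, hv.2, rfl⟩
  · rintro ⟨v, hv, hP, rfl⟩
    exact ⟨v, List.mem_filter.2 ⟨hv, hP⟩, rfl⟩

theorem RT_nodup : RT.Nodup := by decide +kernel

theorem card_SP (P : V → Bool) : (SP P).card = (RT.filter P).length := by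
  unfold SP
  rw [List.toFinset_card_of_nodup, List.length_map]
  exact (RT_nodup.filter _).map toV_inj

/-! ### Masks -/

/-- positive even roots -/
def posP (n : ℕ) (v : V) : Bool := nnV v && evV n v

theorem mem_posP (n : ℕ) (x : Fin 6 → ℤ) : x ∈ SP (posP n) ↔
    IsRoot cs isType_E6.isCartan x ∧ 0 ≤ x ∧ bits 6 n x = 0 := by
  rw [mem_SP, isRoot_iff' cs]
  constructor
  · rintro ⟨v, hv, hP, rfl⟩
    rw [posP, Bool.and_eq_true, nnV_iff, ← bits_iff] at hP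
    exact ⟨⟨v, hv, rfl⟩, hP.1, hP.2⟩
  · rintro ⟨⟨v, hv, rfl⟩, h1, h2⟩
    refine ⟨v, hv, ?_, rfl⟩
    rw [posP, Bool.and_eq_true, nnV_iff, ← bits_iff]
    exact ⟨h1, h2⟩

theorem tab_pos_u : ∀ n ∈ [1, 32, 33], (RT.filter (posP n)).length = 20 := by decide +kernel

theorem tab_pos_z : (RT.filter (posP 2)).length = 16 := by decide +kernel

theorem tab_heis : ∀ n ∈ [1, 32, 33], ∀ a ∈ RT, evV n a = true →
    (RT.filter (fun b => decide (bV b a = 1) && evV n b)).length = 12 := by decide +kernel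

theorem tab_cov : ∀ c ∈ RT, ∃ n ∈ [1, 32, 33], evV n c = true := by decide +kernel

/-- the data for `ustep` -/
theorem heis_data [Finite W] {n : ℕ} (hn : n ∈ [1, 32, 33]) : ∀ α, IsRoot cs isType_E6.isCartan α → bits 6 n α = 0 →
    ∃ S : Finset (Fin 6 → ℤ), (∀ β, β ∈ S ↔ IsRoot cs isType_E6.isCartan β ∧ cpr cs isType_E6.isCartan β α = 1 ∧
      bits 6 n β = 0) ∧ S.card = 12 := by
  intro α hα h0
  obtain ⟨a, ha, rfl⟩ := (isRoot_iff' cs α).1 hα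
  refine ⟨SP (fun b => decide (bV b a = 1) && evV n b), fun β => ?_, ?_⟩
  · rw [mem_SP, isRoot_iff' cs]
    constructor
    · rintro ⟨v, hv, hP, rfl⟩
      rw [Bool.and_eq_true, decide_eq_true_eq, ← bits_iff, ← cpr_toV cs v a ha] at hP
      exact ⟨⟨v, hv, rfl⟩, hP.1, hP.2⟩
    · rintro ⟨⟨v, hv, rfl⟩, h1, h2⟩
      refine ⟨v, hv, ?_, rfl⟩
      rw [Bool.and_eq_true, decide_eq_true_eq, ← bits_iff, ← cpr_toV cs v a ha]
      exact ⟨h1, h2⟩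
  · rw [card_SP]
    exact tab_heis n hn a ha ((bits_iff n a).1 h0)

theorem sum_data [Finite W] {n : ℕ} (hn : n ∈ [1, 32, 33]) {γ : Fin 6 → ℤ} (hγ : IsRoot cs isType_E6.isCartan γ)
    (h0 : bits 6 n γ = 0) : ∃ α β, IsRoot cs isType_E6.isCartan α ∧ IsRoot cs isType_E6.isCartan β ∧
      bits 6 n α = 0 ∧ bits 6 n β = 0 ∧ cpr cs isType_E6.isCartan α β = -1 ∧ α + β = γ := by
  obtain ⟨S, hS, hc⟩ := heis_data cs hn γ hγ h0
  obtain ⟨β, hβ⟩ : S.Nonempty := by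
    rw [← Finset.card_pos, hc]
    norm_num
  obtain ⟨h1, h2, h3⟩ := (hS β).1 hβ
  have e : γ - β = γ + (-1 : ℤ) • β := by rw [neg_one_smul, sub_eq_add_neg]
  have h4 : cpr cs isType_E6.isCartan γ β = 1 := by rw [sl cs γ β hγ h1, h2]
  have h5 := KFacts.RgdSL.isRoot_sub hγ h1 h4
  refine ⟨β, γ - β, h1, h5, h3, by rw [map_sub, h0, h3, sub_zero], ?_, by abel⟩
  rw [sl cs β (γ - β) h1 h5, e, cpr_add cs _ _ _ h1, cpr_smul cs _ _ _ h1, cpr_self cs _ h1, h4]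
  norm_num

theorem cov_data {γ : Fin 6 → ℤ} (hγ : IsRoot cs isType_E6.isCartan γ) : ∃ n ∈ [1, 32, 33], bits 6 n γ = 0 := by
  obtain ⟨c, hc, rfl⟩ := (isRoot_iff' cs γ).1 hγ
  obtain ⟨n, hn, h1⟩ := tab_cov c hc
  exact ⟨n, hn, (bits_iff n c).2 h1⟩

/-! ### Orthogonal roots -/

/-- the highest root -/
def th : V := (1, 2, 2, 3, 2, 1)
/-- the highest root of `A₅` -/
def t1 : V := (1, 0, 1, 1, 1, 1)
/-- the highest root of `A₃` -/
def t2 : V := (0, 0, 1, 1, 1, 0)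
/-- a fundamental root -/
def t3 : V := (0, 0, 0, 1, 0, 0)

/-- the roots orthogonal to `C` at an acute angle to `a` -/
def orP (C : List V) (a v : V) : Bool := (C.all fun c => decide (bV v c = 0)) && decide (bV v a = 1)

theorem tab_root : th ∈ RT ∧ t1 ∈ RT ∧ t2 ∈ RT ∧ t3 ∈ RT := by decide +kernel

theorem tab_or1 : (RT.filter (orP [th] t1)).length = 8 ∧ (RT.filter (orP [th] (-t1))).length = 8 := by decide +kernel

theorem tab_or2 : (RT.filter (orP [t1, th] t2)).length = 4 ∧ (RT.filter (orP [t1, th] (-t2))).length = 4 := by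
  decide +kernel

theorem tab_orth : bV t1 th = 0 ∧ bV t2 th = 0 ∧ bV t3 th = 0 ∧ bV t2 t1 = 0 ∧ bV t3 t1 = 0 ∧ bV t3 t2 = 0 := by
  decide +kernel

theorem neg_mem : ∀ v ∈ RT, -v ∈ RT := by decide +kernel

theorem toV_neg (a : V) : toV (-a) = -toV a := by
  obtain ⟨a0, a1, a2, a3, a4, a5⟩ := a
  simp [toV]

theorem mem_EC [Finite W] {C : List V} (hC : ∀ c ∈ C, c ∈ RT) {v : V} (hv : v ∈ RT) (h : ∀ c ∈ C, bV v c = 0) :
    toV v ∈ EC cs isType_E6.isCartan (C.map toV) := by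
  refine ⟨(isRoot_iff' cs _).2 ⟨v, hv, rfl⟩, fun c hc => ?_⟩
  obtain ⟨c, hc', rfl⟩ := List.mem_map.1 hc
  rw [cpr_toV cs v c (hC c hc'), h c hc']

theorem mem_orP [Finite W] {C : List V} (hC : ∀ c ∈ C, c ∈ RT) {a : V} (ha : a ∈ RT) (x : Fin 6 → ℤ) :
    x ∈ SP (orP C a) ↔ x ∈ EC cs isType_E6.isCartan (C.map toV) ∧ cpr cs isType_E6.isCartan x (toV a) = 1 := by
  rw [mem_SP]
  constructor
  · rintro ⟨v, hv, hP, rfl⟩
    rw [orP, Bool.and_eq_true, decide_eq_true_eq, List.all_eq_true] at hP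
    refine ⟨mem_EC cs hC hv fun c hc => of_decide_eq_true (hP.1 c hc), ?_⟩
    rw [cpr_toV cs v a ha, hP.2]
  · rintro ⟨⟨h1, h2⟩, h3⟩
    obtain ⟨v, hv, rfl⟩ := (isRoot_iff' cs x).1 h1
    refine ⟨v, hv, ?_, rfl⟩
    rw [orP, Bool.and_eq_true, decide_eq_true_eq, List.all_eq_true]
    refine ⟨fun c hc => decide_eq_true ?_, ?_⟩
    · rw [← cpr_toV cs v c (hC c hc)]
      exact h2 _ (List.mem_map.2 ⟨c, hc, rfl⟩)
    · rw [← cpr_toV cs v a ha]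
      exact h3

/-! ### Characters of roots -/

/-- the fundamental roots -/
def srV : List V := [(1, 0, 0, 0, 0, 0), (0, 1, 0, 0, 0, 0), (0, 0, 1, 0, 0, 0), (0, 0, 0, 1, 0, 0), (0, 0, 0, 0, 1, 0),
  (0, 0, 0, 0, 0, 1)]

theorem sr_eq (k : Fin 6) : (sr k : Fin 6 → ℤ) = toV (srV.getD k 0) := by
  funext j
  revert k j
  decide +kernel

/-- the mask of `⟨·, β^∨⟩` -/
def mk (b : V) (n : ℕ) : Bool := (List.range 6).all fun k => decide ((n.testBit k = true) ↔ bV (srV.getD k 0) b % 2 ≠ 0)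

theorem psi_eq [Finite W] {b : V} (hb : b ∈ RT) {n : ℕ} (hn : mk b n = true)
    (hβ : IsRoot cs isType_E6.isCartan (toV b)) : psi hβ = bits 6 n := by
  refine H557.LrOrb.ext_sr fun k => ?_
  rw [H557.LrOrb.bits_sr, psi_apply, sr_eq k, cpr_toV cs _ b hb, H557.LrOrb.cast_zmod2]
  have h1 := (List.all_eq_true.1 hn) k (List.mem_range.2 k.2)
  have h2 := of_decide_eq_true h1
  by_cases h3 : n.testBit k = true
  · rw [if_pos h3, if_pos (h2.1 h3)]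
  · rw [if_neg h3, if_neg (fun h4 => h3 (h2.2 h4))]

theorem mk_th : mk th 2 = true := by decide +kernel
theorem mk_t1 : mk t1 35 = true := by decide +kernel
theorem mk_t2 : mk t2 55 = true := by decide +kernel
theorem mk_t3 : mk t3 22 = true := by decide +kernel
theorem mk_s1 : mk (0, 1, 0, 0, 0, 0) 8 = true := by decide +kernel
theorem mk_s4 : mk (0, 0, 0, 0, 1, 0) 40 = true := by decide +kernel

/-! ### The order -/

section

variable (K : Type) [Field K] [Fintype K]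

theorem card_le : Nat.card ↥(chevE6.group K) * (Fintype.card K - 1) ^ 6 ≤
    Nat.card ↥(TT chevE6 K) * Fintype.card K ^ 78 := by
  obtain ⟨q, hq⟩ : ∃ q, Fintype.card K = q := ⟨_, rfl⟩
  rw [hq]
  have h1 := S1063.result (F := K) hq
  have h2 := S1035.result (F := K) hq (chevE6, Nat.gcd 3 (q - 1)) (by simp)
  have h3 : Nat.card ↥(TT chevE6 K) = Nat.card (chevE6.diagonalSubgroup K) :=
    Nat.card_congr (Subgroup.subgroupOfEquivOfLe (Elts.diagonal_le_group isType_E6.inList K)).toEquiv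
  have h2' : Nat.gcd 3 (q - 1) * Nat.card ↥(TT chevE6 K) = (q - 1) ^ 6 := by
    rw [h3]
    exact h2
  have hg : 0 < Nat.gcd 3 (q - 1) := Nat.gcd_pos_of_pos_left _ (by norm_num)
  refine Nat.le_of_mul_le_mul_left (c := Nat.gcd 3 (q - 1)) ?_ hg
  calc Nat.gcd 3 (q - 1) * (Nat.card ↥(chevE6.group K) * (q - 1) ^ 6)
      = (Nat.gcd 3 (q - 1) * Nat.card ↥(chevE6.group K)) * (q - 1) ^ 6 := by ring
    _ = q ^ 36 * (q ^ 2 - 1) * (q ^ 5 - 1) * (q ^ 6 - 1) * (q ^ 8 - 1) * (q ^ 9 - 1) * (q ^ 12 - 1) * (q - 1) ^ 6 := by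
      rw [h1]
    _ ≤ q ^ 36 * q ^ 2 * q ^ 5 * q ^ 6 * q ^ 8 * q ^ 9 * q ^ 12 * (q - 1) ^ 6 := by
      gcongr <;> exact Nat.sub_le _ _
    _ = (q - 1) ^ 6 * q ^ 78 := by ring
    _ = (Nat.gcd 3 (q - 1) * Nat.card ↥(TT chevE6 K)) * q ^ 78 := by rw [h2']
    _ = _ := by ring

end

end Cfsg.Agent.H190.IF.Tab6
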