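import Cfsg.Agent.H190.IF.CoreP
import Cfsg.Agent.GenExc.Data
import Cfsg.Agent.UGT.U2.FOne.TriComb
import Cfsg.Agent.Nodes.SimplyLaced
import Cfsg.Agent.H557.LrOrb

/-!
# S5719: the roots of `E₇` (helper190)

* `RT`, `toV` : the table of the roots; `bV` : the form; `evV n` : the mask `n`;
* `isRoot_iff'`, `cpr_toV`, `bits_toV`;
* `SP P` : the finite set of the roots with `P`;
* `tab_*` : kernel computations.
-/

set_option autoImplicit false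
set_option linter.unusedSectionVars false

namespace Cfsg.Agent.H190.IF.Tab7

open CoxeterSystem
open Cfsg Cfsg.Lie Cfsg.Lie.ChevalleyDatum
open Cfsg.Agent.ChevalleyStructure Cfsg.Agent.ChevalleyStructure.CoxeterGeom
  Cfsg.Agent.ChevalleyStructure.CoxeterGeomTypes
open Cfsg.Agent.Tits.Roots Cfsg.Agent.Tits.Core Cfsg.Agent.Nodes.Reps Cfsg.Agent.Nodes.BNOf Cfsg.Agent.Nodes.RGDChev
  Cfsg.Agent.Nodes.Coroot
open Cfsg.Agent.KFacts.RgdChevCoord (TT XX)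
open Cfsg.Agent.KFacts.RgdSL (SL)
open Cfsg.Agent.GenExc.Chev (isType_E7)
open Cfsg.Agent.H557.LrOrb (bits)

/-! ### The table -/

/-- vectors -/
abbrev V := ℤ × ℤ × ℤ × ℤ × ℤ × ℤ × ℤ

/-- vectors as functions -/
def toV (v : V) : Fin 7 → ℤ := ![v.1, v.2.1, v.2.2.1, v.2.2.2.1, v.2.2.2.2.1, v.2.2.2.2.2.1, v.2.2.2.2.2.2]

theorem toV_inj : Function.Injective toV := by
  rintro ⟨a, b, c, d, e, f, g⟩ ⟨a', b', c', d', e', f', g'⟩ h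
  have h0 : a = a' := congrFun h 0
  have h1 : b = b' := congrFun h 1
  have h2 : c = c' := congrFun h 2
  have h3 : d = d' := congrFun h 3
  have h4 : e = e' := congrFun h 4
  have h5 : f = f' := congrFun h 5
  have h6 : g = g' := congrFun h 6
  rw [h0, h1, h2, h3, h4, h5, h6]

/-- the 126 roots -/
def RT : List V :=
  [(-2, -2, -3, -4, -3, -2, -1), (-1, -2, -3, -4, -3, -2, -1), (-1, -2, -2, -4, -3, -2, -1), (-1, -2, -2, -3, -3, -2,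
   -1), (-1, -2, -2, -3, -2, -2, -1), (-1, -2, -2, -3, -2, -1, -1), (-1, -2, -2, -3, -2, -1, 0), (-1, -1, -2, -3, -3, -2,
   -1), (-1, -1, -2, -3, -2, -2, -1), (-1, -1, -2, -3, -2, -1, -1), (-1, -1, -2, -3, -2, -1, 0), (-1, -1, -2, -2, -2, -2,
   -1), (-1, -1, -2, -2, -2, -1, -1), (-1, -1, -2, -2, -2, -1, 0), (-1, -1, -2, -2, -1, -1, -1), (-1, -1, -2, -2, -1, -1,
   0), (-1, -1, -2, -2, -1, 0, 0), (-1, -1, -1, -2, -2, -2, -1), (-1, -1, -1, -2, -2, -1, -1), (-1, -1, -1, -2, -2, -1,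
   0), (-1, -1, -1, -2, -1, -1, -1), (-1, -1, -1, -2, -1, -1, 0), (-1, -1, -1, -2, -1, 0, 0), (-1, -1, -1, -1, -1, -1,
   -1), (-1, -1, -1, -1, -1, -1, 0), (-1, -1, -1, -1, -1, 0, 0), (-1, -1, -1, -1, 0, 0, 0), (-1, 0, -1, -1, -1, -1, -1),
   (-1, 0, -1, -1, -1, -1, 0), (-1, 0, -1, -1, -1, 0, 0), (-1, 0, -1, -1, 0, 0, 0), (-1, 0, -1, 0, 0, 0, 0), (-1, 0, 0,
   0, 0, 0, 0), (0, -1, -1, -2, -2, -2, -1), (0, -1, -1, -2, -2, -1, -1), (0, -1, -1, -2, -2, -1, 0), (0, -1, -1, -2, -1,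
   -1, -1), (0, -1, -1, -2, -1, -1, 0), (0, -1, -1, -2, -1, 0, 0), (0, -1, -1, -1, -1, -1, -1), (0, -1, -1, -1, -1, -1,
   0), (0, -1, -1, -1, -1, 0, 0), (0, -1, -1, -1, 0, 0, 0), (0, -1, 0, -1, -1, -1, -1), (0, -1, 0, -1, -1, -1, 0), (0,
   -1, 0, -1, -1, 0, 0), (0, -1, 0, -1, 0, 0, 0), (0, -1, 0, 0, 0, 0, 0), (0, 0, -1, -1, -1, -1, -1), (0, 0, -1, -1, -1,
   -1, 0), (0, 0, -1, -1, -1, 0, 0), (0, 0, -1, -1, 0, 0, 0), (0, 0, -1, 0, 0, 0, 0), (0, 0, 0, -1, -1, -1, -1), (0, 0,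
   0, -1, -1, -1, 0), (0, 0, 0, -1, -1, 0, 0), (0, 0, 0, -1, 0, 0, 0), (0, 0, 0, 0, -1, -1, -1), (0, 0, 0, 0, -1, -1, 0),
   (0, 0, 0, 0, -1, 0, 0), (0, 0, 0, 0, 0, -1, -1), (0, 0, 0, 0, 0, -1, 0), (0, 0, 0, 0, 0, 0, -1), (0, 0, 0, 0, 0, 0,
   1), (0, 0, 0, 0, 0, 1, 0), (0, 0, 0, 0, 0, 1, 1), (0, 0, 0, 0, 1, 0, 0), (0, 0, 0, 0, 1, 1, 0), (0, 0, 0, 0, 1, 1, 1),
   (0, 0, 0, 1, 0, 0, 0), (0, 0, 0, 1, 1, 0, 0), (0, 0, 0, 1, 1, 1, 0), (0, 0, 0, 1, 1, 1, 1), (0, 0, 1, 0, 0, 0, 0), (0,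
   0, 1, 1, 0, 0, 0), (0, 0, 1, 1, 1, 0, 0), (0, 0, 1, 1, 1, 1, 0), (0, 0, 1, 1, 1, 1, 1), (0, 1, 0, 0, 0, 0, 0), (0, 1,
   0, 1, 0, 0, 0), (0, 1, 0, 1, 1, 0, 0), (0, 1, 0, 1, 1, 1, 0), (0, 1, 0, 1, 1, 1, 1), (0, 1, 1, 1, 0, 0, 0), (0, 1, 1,
   1, 1, 0, 0), (0, 1, 1, 1, 1, 1, 0), (0, 1, 1, 1, 1, 1, 1), (0, 1, 1, 2, 1, 0, 0), (0, 1, 1, 2, 1, 1, 0), (0, 1, 1, 2,
   1, 1, 1), (0, 1, 1, 2, 2, 1, 0), (0, 1, 1, 2, 2, 1, 1), (0, 1, 1, 2, 2, 2, 1), (1, 0, 0, 0, 0, 0, 0), (1, 0, 1, 0, 0,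
   0, 0), (1, 0, 1, 1, 0, 0, 0), (1, 0, 1, 1, 1, 0, 0), (1, 0, 1, 1, 1, 1, 0), (1, 0, 1, 1, 1, 1, 1), (1, 1, 1, 1, 0, 0,
   0), (1, 1, 1, 1, 1, 0, 0), (1, 1, 1, 1, 1, 1, 0), (1, 1, 1, 1, 1, 1, 1), (1, 1, 1, 2, 1, 0, 0), (1, 1, 1, 2, 1, 1, 0),
   (1, 1, 1, 2, 1, 1, 1), (1, 1, 1, 2, 2, 1, 0), (1, 1, 1, 2, 2, 1, 1), (1, 1, 1, 2, 2, 2, 1), (1, 1, 2, 2, 1, 0, 0), (1,
   1, 2, 2, 1, 1, 0), (1, 1, 2, 2, 1, 1, 1), (1, 1, 2, 2, 2, 1, 0), (1, 1, 2, 2, 2, 1, 1), (1, 1, 2, 2, 2, 2, 1), (1, 1,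
   2, 3, 2, 1, 0), (1, 1, 2, 3, 2, 1, 1), (1, 1, 2, 3, 2, 2, 1), (1, 1, 2, 3, 3, 2, 1), (1, 2, 2, 3, 2, 1, 0), (1, 2, 2,
   3, 2, 1, 1), (1, 2, 2, 3, 2, 2, 1), (1, 2, 2, 3, 3, 2, 1), (1, 2, 2, 4, 3, 2, 1), (1, 2, 3, 4, 3, 2, 1), (2, 2, 3, 4,
   3, 2, 1)]

/-- the form -/
def bV (x y : V) : ℤ :=
  2 * (x.1 * y.1 + x.2.1 * y.2.1 + x.2.2.1 * y.2.2.1 + x.2.2.2.1 * y.2.2.2.1 + x.2.2.2.2.1 * y.2.2.2.2.1 +
    x.2.2.2.2.2.1 * y.2.2.2.2.2.1 + x.2.2.2.2.2.2 * y.2.2.2.2.2.2) - (x.1 * y.2.2.1 + x.2.2.1 * y.1 + x.2.2.1 *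
    y.2.2.2.1 + x.2.2.2.1 * y.2.2.1 + x.2.2.2.1 * y.2.2.2.2.1 + x.2.2.2.2.1 * y.2.2.2.1 + x.2.2.2.2.1 *
    y.2.2.2.2.2.1 + x.2.2.2.2.2.1 * y.2.2.2.2.1 + x.2.2.2.2.2.1 * y.2.2.2.2.2.2 + x.2.2.2.2.2.2 * y.2.2.2.2.2.1
    + x.2.1 * y.2.2.2.1 + x.2.2.2.1 * y.2.1)

/-- the sum of the coefficients in the mask -/
def sV (n : ℕ) (x : V) : ℤ :=
  (if n.testBit 0 then x.1 else 0) + (if n.testBit 1 then x.2.1 else 0) + (if n.testBit 2 then x.2.2.1 else 0)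
    + (if n.testBit 3 then x.2.2.2.1 else 0) + (if n.testBit 4 then x.2.2.2.2.1 else 0) + (if n.testBit 5 then
    x.2.2.2.2.2.1 else 0) + (if n.testBit 6 then x.2.2.2.2.2.2 else 0)

/-- even roots of the mask `n` -/
def evV (n : ℕ) (x : V) : Bool := decide (sV n x % 2 = 0)

/-- non-negative vectors -/
def nnV (x : V) : Bool :=
  decide (0 ≤ x.1) && decide (0 ≤ x.2.1) && decide (0 ≤ x.2.2.1) && decide (0 ≤ x.2.2.2.1) && decide (0 ≤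
    x.2.2.2.2.1) && decide (0 ≤ x.2.2.2.2.2.1) && decide (0 ≤ x.2.2.2.2.2.2)

theorem nnV_iff (x : V) : nnV x = true ↔ 0 ≤ toV x := by
  obtain ⟨a, b, c, d, e, f, g⟩ := x
  simp only [nnV, Bool.and_eq_true, decide_eq_true_eq, Pi.le_def, Pi.zero_apply, Fin.forall_fin_succ, toV]
  constructor
  · rintro ⟨⟨⟨⟨⟨⟨h0, h1⟩, h2⟩, h3⟩, h4⟩, h5⟩, h6⟩
    exact ⟨h0, h1, h2, h3, h4, h5, h6, fun i => i.elim0⟩
  · rintro ⟨h0, h1, h2, h3, h4, h5, h6, -⟩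
    exact ⟨⟨⟨⟨⟨⟨h0, h1⟩, h2⟩, h3⟩, h4⟩, h5⟩, h6⟩

set_option backward.isDefEq.respectTransparency false in
theorem tab_to : ∀ r : Fin 126, ∃ v ∈ RT, toV v = vec chevE7 7 r := by decide +kernel

set_option backward.isDefEq.respectTransparency false in
theorem tab_from : ∀ v ∈ RT, ∃ r : Fin 126, vec chevE7 7 r = toV v := by decide +kernel

/-- the Cartan matrix -/
def C7 : Fin 7 → Fin 7 → ℤ :=
  ![![2, 0, -1, 0, 0, 0, 0],
    ![0, 2, 0, -1, 0, 0, 0],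
    ![-1, 0, 2, -1, 0, 0, 0],
    ![0, -1, -1, 2, -1, 0, 0],
    ![0, 0, 0, -1, 2, -1, 0],
    ![0, 0, 0, 0, -1, 2, -1],
    ![0, 0, 0, 0, 0, -1, 2]]

set_option backward.isDefEq.respectTransparency false in
theorem cartanOf_eq : cartanOf chevE7 7 = C7 := by
  funext i j
  revert i j
  decide +kernel

variable {W : Type*} [Group W] (cs : CoxeterSystem CoxeterMatrix.E₇ W)

theorem isRoot_iff' (x : Fin 7 → ℤ) : IsRoot cs isType_E7.isCartan x ↔ ∃ v ∈ RT, toV v = x := by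
  rw [isRoot_iff isType_E7 cs]
  constructor
  · rintro ⟨r, hr, rfl⟩
    exact tab_to ⟨r, hr⟩
  · rintro ⟨v, hv, rfl⟩
    obtain ⟨r, hr⟩ := tab_from v hv
    exact ⟨r, r.2, hr⟩

set_option backward.isDefEq.respectTransparency false in
theorem ne7 : ∀ i j : Fin 7, CoxeterMatrix.E₇ i j ≠ 4 ∧ CoxeterMatrix.E₇ i j ≠ 6 := by decide

theorem sl [Finite W] : SL cs isType_E7.isCartan :=
  fun _ _ hx hy => Cfsg.Agent.Nodes.SimplyLaced.cpr_symm cs isType_E7.isCartan (fun i j => (ne7 i j).1)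
    (fun i j => (ne7 i j).2) hx hy

theorem cpr_toV [Finite W] (v w : V) (hw : w ∈ RT) : cpr cs isType_E7.isCartan (toV v) (toV w) = bV v w := by
  rw [Cfsg.Agent.UGT.U2.FOne.Triality.cpr_sum (sl cs) _ ((isRoot_iff' cs _).2 ⟨w, hw, rfl⟩), cartanOf_eq]
  obtain ⟨a, b, c, d, e, f, g⟩ := v
  obtain ⟨a', b', c', d', e', f', g'⟩ := w
  simp only [pairing, Fin.sum_univ_succ, toV, C7, bV]
  simp
  ring

theorem bits_toV (n : ℕ) (v : V) : bits 7 n (toV v) = ((sV n v : ℤ) : ZMod 2) := by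
  obtain ⟨a, b, c, d, e, f, g⟩ := v
  show (∑ k : Fin 7, if n.testBit k then ((toV (a, b, c, d, e, f, g) k : ℤ) : ZMod 2) else 0) = _
  simp only [Fin.sum_univ_succ, toV, sV]
  simp
  ring

theorem bits_iff (n : ℕ) (v : V) : bits 7 n (toV v) = 0 ↔ evV n v = true := by
  rw [bits_toV, ZMod.intCast_zmod_eq_zero_iff_dvd, evV, decide_eq_true_eq]
  exact Int.dvd_iff_emod_eq_zero

/-- the roots with `P` -/
def SP (P : V → Bool) : Finset (Fin 7 → ℤ) := ((RT.filter P).map toV).toFinset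

theorem mem_SP (P : V → Bool) (x : Fin 7 → ℤ) : x ∈ SP P ↔ ∃ v ∈ RT, P v = true ∧ toV v = x := by
  unfold SP
  rw [List.mem_toFinset, List.mem_map]
  constructor
  · rintro ⟨v, hv, rfl⟩
    rw [List.mem_filter] at hv
    exact ⟨v, hv.1, hv.2, rfl⟩
  · rintro ⟨v, hv, hP, rfl⟩
    exact ⟨v, List.mem_filter.2 ⟨hv, hP⟩, rfl⟩

instance : DecidableEq V := fun x y =>
  decidable_of_iff (x.1 = y.1 ∧ x.2 = y.2) ⟨fun h => Prod.ext h.1 h.2, fun h => h ▸ ⟨rfl, rfl⟩⟩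

theorem RT_nodup : RT.Nodup := by decide +kernel

theorem card_SP (P : V → Bool) : (SP P).card = (RT.filter P).length := by
  unfold SP
  rw [List.toFinset_card_of_nodup, List.length_map]
  exact (RT_nodup.filter _).map toV_inj

/-! ### Masks -/

/-- positive even roots -/
def posP (n : ℕ) (v : V) : Bool := nnV v && evV n v

theorem mem_posP (n : ℕ) (x : Fin 7 → ℤ) : x ∈ SP (posP n) ↔
    IsRoot cs isType_E7.isCartan x ∧ 0 ≤ x ∧ bits 7 n x = 0 := by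
  rw [mem_SP, isRoot_iff' cs]
  constructor
  · rintro ⟨v, hv, hP, rfl⟩
    rw [posP, Bool.and_eq_true, nnV_iff, ← bits_iff] at hP
    exact ⟨⟨v, hv, rfl⟩, hP.1, hP.2⟩
  · rintro ⟨⟨v, hv, rfl⟩, h1, h2⟩
    refine ⟨v, hv, ?_, rfl⟩
    rw [posP, Bool.and_eq_true, nnV_iff, ← bits_iff]
    exact ⟨h1, h2⟩

theorem tab_pos_1 : (RT.filter (posP 1)).length = 31 := by decide +kernel

theorem tab_pos_2 : (RT.filter (posP 2)).length = 28 := by decide +kernel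

theorem tab_pos_64 : (RT.filter (posP 64)).length = 36 := by decide +kernel

/-! ### Orthogonal roots -/

/-- the even roots orthogonal to `C` at an acute angle to `a` -/
def orP (n : ℕ) (C : List V) (a v : V) : Bool :=
  (evV n v && C.all fun c => decide (bV v c = 0)) && decide (bV v a = 1)

theorem neg_mem : ∀ v ∈ RT, -v ∈ RT := by decide +kernel

theorem toV_neg (a : V) : toV (-a) = -toV a := by
  obtain ⟨a0, a1, a2, a3, a4, a5, a6⟩ := a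
  simp [toV]

theorem mem_EP [Finite W] {n : ℕ} {C : List V} (hC : ∀ c ∈ C, c ∈ RT) {v : V} (hv : v ∈ RT) (he : evV n v = true)
    (h : ∀ c ∈ C, bV v c = 0) : toV v ∈ EP cs isType_E7.isCartan (bits 7 n) (C.map toV) := by
  refine ⟨(isRoot_iff' cs _).2 ⟨v, hv, rfl⟩, (bits_iff n v).2 he, fun c hc => ?_⟩
  obtain ⟨c, hc', rfl⟩ := List.mem_map.1 hc
  rw [cpr_toV cs v c (hC c hc'), h c hc']

theorem mem_orP [Finite W] {n : ℕ} {C : List V} (hC : ∀ c ∈ C, c ∈ RT) {a : V} (ha : a ∈ RT) (x : Fin 7 → ℤ) :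
    x ∈ SP (orP n C a) ↔
      x ∈ EP cs isType_E7.isCartan (bits 7 n) (C.map toV) ∧ cpr cs isType_E7.isCartan x (toV a) = 1 := by
  rw [mem_SP]
  constructor
  · rintro ⟨v, hv, hP, rfl⟩
    rw [orP, Bool.and_eq_true, Bool.and_eq_true, decide_eq_true_eq, List.all_eq_true] at hP
    refine ⟨mem_EP cs hC hv hP.1.1 fun c hc => of_decide_eq_true (hP.1.2 c hc), ?_⟩
    rw [cpr_toV cs v a ha, hP.2]
  · rintro ⟨⟨h1, h0, h2⟩, h3⟩
    obtain ⟨v, hv, rfl⟩ := (isRoot_iff' cs x).1 h1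
    refine ⟨v, hv, ?_, rfl⟩
    rw [orP, Bool.and_eq_true, Bool.and_eq_true, decide_eq_true_eq, List.all_eq_true]
    refine ⟨⟨(bits_iff n v).1 h0, fun c hc => decide_eq_true ?_⟩, ?_⟩
    · rw [← cpr_toV cs v c (hC c hc)]
      exact h2 _ (List.mem_map.2 ⟨c, hc, rfl⟩)
    · rw [← cpr_toV cs v a ha]
      exact h3

/-- a step of a chain -/
def okS (n : ℕ) (C : List V) (a : V) (d : ℕ) : Bool :=
  (C.all fun c => RT.contains c) && RT.contains a && evV n a && (C.all fun c => decide (bV a c = 0)) &&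
    decide ((RT.filter (orP n C a)).length = 2 * d) && decide ((RT.filter (orP n C (-a))).length = 2 * d)

/-- the chain of the mask `2` (type `A₇`) -/
def chA : List (V × ℕ) := [((0, 0, 0, 0, 1, 0, 0), 0), ((0, 0, 0, 1, 1, 1, 0), 2), ((0, 0, 1, 1, 1, 1, 1), 4),
  ((2, 2, 3, 4, 3, 2, 1), 6)]

/-- the chain of the mask `64` (type `E₆`) -/
def chE : List (V × ℕ) := [((0, 0, 0, 1, 0, 0, 0), 0), ((0, 0, 1, 1, 1, 0, 0), 2), ((1, 0, 1, 1, 1, 1, 0), 4),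
  ((1, 2, 2, 3, 2, 1, 0), 10)]

/-- the check of a chain (from the start to the top) -/
def okC (n : ℕ) : List (V × ℕ) → Bool
  | [] => true
  | (a, d) :: L => okS n (L.map Prod.fst) a d && okC n L

theorem ok_A : okC 2 chA = true := by decide +kernel

theorem ok_E : okC 64 chE = true := by decide +kernel

/-! ### Characters of roots -/

/-- the fundamental roots -/
def srV : List V := [(1, 0, 0, 0, 0, 0, 0), (0, 1, 0, 0, 0, 0, 0), (0, 0, 1, 0, 0, 0, 0), (0, 0, 0, 1, 0, 0, 0), (0, 0, 0, 0, 1, 0, 0), (0, 0, 0, 0, 0, 1, 0), (0, 0, 0, 0, 0, 0, 1)]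

theorem sr_eq (k : Fin 7) : (sr k : Fin 7 → ℤ) = toV (srV.getD k 0) := by
  funext j
  revert k j
  decide +kernel

/-- the mask of `⟨·, β^∨⟩` -/
def mk (b : V) (n : ℕ) : Bool := (List.range 7).all fun k => decide ((n.testBit k = true) ↔ bV (srV.getD k 0) b % 2 ≠ 0)

theorem psi_eq [Finite W] {b : V} (hb : b ∈ RT) {n : ℕ} (hn : mk b n = true)
    (hβ : IsRoot cs isType_E7.isCartan (toV b)) : psi hβ = bits 7 n := by
  refine H557.LrOrb.ext_sr fun k => ?_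
  rw [H557.LrOrb.bits_sr, psi_apply, sr_eq k, cpr_toV cs _ b hb, H557.LrOrb.cast_zmod2]
  have h1 := (List.all_eq_true.1 hn) k (List.mem_range.2 k.2)
  have h2 := of_decide_eq_true h1
  by_cases h3 : n.testBit k = true
  · rw [if_pos h3, if_pos (h2.1 h3)]
  · rw [if_neg h3, if_neg (fun h4 => h3 (h2.2 h4))]

/-- the highest root -/
def th : V := (2, 2, 3, 4, 3, 2, 1)

theorem th_mem : th ∈ RT := by decide +kernel

theorem mk_th : mk th 1 = true := by decide +kernel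

end Cfsg.Agent.H190.IF.Tab7
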